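import Cfsg.Agent.ONanPSL.Lines

/-!
The axes and the lines of the projective space.
-/

set_option autoImplicit false
set_option linter.all false

open scoped Pointwise

namespace Cfsg.Agent.ONanPSL

/-- The points fixed by an element. -/
def Fx {G : Type*} (X : Type*) [Group G] [MulAction G X] (g : G) : Set X := {z | g • z = z}

namespace Fam

variable {G X : Type*} [Group G] [MulAction G X] {N : X → Subgroup G} {p : ℕ}

/-- A maximal fixed point set of a nontrivial element of one of the subgroups, with at least two points. -/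
def Ax (_h : Fam G X N p) (H : Set X) : Prop :=
  H.Nontrivial ∧ (∃ z, ∃ s ∈ N z, s ≠ 1 ∧ Fx X s = H) ∧ ∀ z, ∀ s ∈ N z, s ≠ 1 → H ⊆ Fx X s → Fx X s = H

/-- The elements of `N x` fixing `H` pointwise. -/
def S (_h : Fam G X N p) (x : X) (H : Set X) : Subgroup G := N x ⊓ fixingSubgroup G H

/-- The line through `x` and `y`. -/
def Lp (_h : Fam G X N p) (x y : X) : Set X := {z | z = x ∨ ∃ n ∈ N x, n • y = z}

variable (h : Fam G X N p) [Finite G] [Finite X]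
include h

theorem mem_S {x : X} {H : Set X} {g : G} : g ∈ h.S x H ↔ g ∈ N x ∧ ∀ z ∈ H, g • z = z := by
  simp only [S, Subgroup.mem_inf, mem_fixingSubgroup_iff]

theorem S_le_A {x y : X} {H : Set X} (hy : y ∈ H) : h.S x H ≤ h.A x y :=
  fun g hg => ⟨(h.mem_S.1 hg).1, (h.mem_S.1 hg).2 y hy⟩

theorem exists_ax {x y : X} (hxy : x ≠ y) : ∃ H, h.Ax H ∧ x ∈ H ∧ y ∈ H := by
  obtain ⟨a, ha, ha1, hay⟩ := h.nsr x y hxy
  let F : Set (Set X) := {H | ∃ z, ∃ s ∈ N z, s ≠ 1 ∧ Fx X s = H}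
  obtain ⟨H, hle, hH⟩ := (Set.toFinite F).exists_le_maximal (show Fx X a ∈ F from ⟨x, a, ha, ha1, rfl⟩)
  have hx : x ∈ H := hle (h.fix x a ha)
  have hy : y ∈ H := hle hay
  refine ⟨H, ⟨⟨x, hx, y, hy, hxy⟩, hH.prop, fun z s hs hs1 hsub => ?_⟩, hx, hy⟩
  exact (hH.eq_of_le ⟨z, s, hs, hs1, rfl⟩ hsub).symm

theorem smul_eq_of_commute {y : X} {b : G} (hb : b ∈ N y) (hb1 : b ≠ 1) {n : G}
    (e : n * b * n⁻¹ = b) : n • y = y :=
  h.centre_unique hb1 (e ▸ h.conj n y b hb) hb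

variable {H : Set X} (hH : h.Ax H)
include hH

theorem ax_subspace {u v : X} (huv : u ≠ v) (hu : u ∈ H) (hv : v ∈ H) {w : X} (hw : w ∈ h.Ln u v) : w ∈ H := by
  obtain ⟨z, s, hs, hs1, rfl⟩ := hH.2.1
  exact h.fix_Ln huv hs hu hv hw

theorem ax_smul {x y : X} (hx : x ∈ H) (hy : y ∈ H) {n : G} (hn : n ∈ N x) : n • y ∈ H := by
  by_cases hxy : x = y
  · subst hxy; rwa [h.fix x n hn]
  · exact h.ax_subspace hH hxy hx hy (h.smul_mem_Ln' hxy (h.right_mem_Ln hxy) hn)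

theorem ax_exact {x : X} {s : G} (hs : s ∈ h.S x H) (hs1 : s ≠ 1) {t : X} (ht : t ∉ H) : s • t ≠ t := by
  intro e
  have h1 := hH.2.2 x s (h.mem_S.1 hs).1 hs1 (fun z hz => (h.mem_S.1 hs).2 z hz)
  exact ht (h1 ▸ e)

theorem ax_ne_univ : ∃ t, t ∉ H := by
  by_contra hc
  push Not at hc
  obtain ⟨z, s, hs, hs1, he⟩ := hH.2.1
  exact hs1 (h.faithful s fun t => (Set.ext_iff.1 he t).2 (hc t))

theorem comm_mem {x y : X} (hx : x ∈ H) {b : G} (hb : b ∈ h.S y H) {n : G} (hn : n ∈ N x) :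
    n * b * n⁻¹ * b⁻¹ ∈ h.S x H := by
  obtain ⟨hbN, hbH⟩ := h.mem_S.1 hb
  refine h.mem_S.2 ⟨?_, fun u hu => ?_⟩
  · have h1 := h.conj b x n⁻¹ ((N x).inv_mem hn)
    rw [hbH x hx] at h1
    rw [show n * b * n⁻¹ * b⁻¹ = n * (b * n⁻¹ * b⁻¹) by group]
    exact (N x).mul_mem hn h1
  · rw [mul_smul, inv_smul_eq_iff.2 (hbH u hu).symm, mul_smul, mul_smul,
      hbH _ (h.ax_smul hH hx hu ((N x).inv_mem hn)), smul_inv_smul]

theorem commute_comm {x y : X} (hxy : x ≠ y) (hx : x ∈ H) (hy : y ∈ H) {a b : G} (ha : a ∈ h.S x H)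
    (hb : b ∈ h.S y H) : a * b = b * a :=
  h.A_comm hxy (h.S_le_A hy ha) (h.S_le_A hx hb)

theorem exists_S_ne_one {x : X} (hx : x ∈ H) : ∃ a ∈ h.S x H, a ≠ 1 := by
  obtain ⟨z, s, hs, hs1, he⟩ := hH.2.1
  have hsS : s ∈ h.S z H := h.mem_S.2 ⟨hs, fun u hu => (Set.ext_iff.1 he u).2 hu⟩
  by_cases hxz : x = z
  · exact ⟨s, hxz ▸ hsS, hs1⟩
  obtain ⟨n, hn, hnz⟩ := h.exists_move hxz
  exact ⟨_, h.comm_mem hH hx hsS hn, fun e => hnz (h.smul_eq_of_commute hs hs1 (mul_inv_eq_one.1 e))⟩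

theorem card_NA {x y : X} (hxy : x ≠ y) (hy : y ∈ H) (hx : x ∈ H) {b : G} (hb : b ∈ h.S y H) (hb1 : b ≠ 1)
    {t : X} (ht : t ∉ H) :
    (∀ a ∈ h.S x H, ∃ n ∈ N x, n * b * n⁻¹ * b⁻¹ = a) ∧
      Nat.card (h.S x H) * Nat.card (h.A x t) = Nat.card (N x) ∧
      ∀ n ∈ N x, ∃ s ∈ h.S x H, s • t = n • t := by
  classical
  let f : ↥(N x) →* ↥(h.S x H) := MonoidHom.mk' (fun n => ⟨_, h.comm_mem hH hx hb n.2⟩) fun n n' => Subtype.ext (by
    show (n : G) * n' * b * ((n : G) * n')⁻¹ * b⁻¹ = (n : G) * b * (n : G)⁻¹ * b⁻¹ * ((n' : G) * b * (n' : G)⁻¹ * b⁻¹)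
    have h1 := (h.mem_S.1 (h.comm_mem hH hx hb n'.2)).1
    rw [h.comm x _ (h.mem_S.1 (h.comm_mem hH hx hb n.2)).1 _ h1,
      show (n : G) * n' * b * ((n : G) * n')⁻¹ * b⁻¹ =
        (n : G) * ((n' : G) * b * (n' : G)⁻¹ * b⁻¹) * ((n : G)⁻¹ * ((n : G) * b * (n : G)⁻¹ * b⁻¹)) by group,
      h.comm x _ n.2 _ h1]
    group)
  have hker : Nat.card f.ker ≤ Nat.card (h.A x y) :=
    Nat.card_le_card_of_injective (fun n => (⟨((n : ↥(N x)) : G), (n : ↥(N x)).2,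
      h.smul_eq_of_commute (h.mem_S.1 hb).1 hb1 (mul_inv_eq_one.1 (congrArg Subtype.val n.2))⟩ : h.A x y))
      fun a b e => Subtype.ext (Subtype.ext (congrArg Subtype.val e :))
  let g : ↥(h.S x H) × ↥(h.A x t) → ↥(N x) := fun q =>
    ⟨(q.1 : G) * q.2, (N x).mul_mem (h.mem_S.1 q.1.2).1 q.2.2.1⟩
  have hg : Function.Injective g := by
    rintro ⟨s, a⟩ ⟨s', a'⟩ e
    have e' : (s : G) * a = s' * a' := congrArg Subtype.val e
    have h1 : (s' : G)⁻¹ * s = (a' : G) * (a : G)⁻¹ := by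
      rw [eq_mul_inv_iff_mul_eq, mul_assoc, e', inv_mul_cancel_left]
    have h2 : (s' : G)⁻¹ * s = 1 := by
      by_contra hne
      refine h.ax_exact hH ((h.S x H).mul_mem ((h.S x H).inv_mem s'.2) s.2) hne ht ?_
      rw [h1]
      exact ((h.A x t).mul_mem a'.2 ((h.A x t).inv_mem a.2)).2
    have hs : s = s' := Subtype.ext (inv_mul_eq_one.1 h2).symm
    subst hs
    exact Prod.ext rfl (Subtype.ext (mul_left_cancel e'))
  have h1 : Nat.card (h.S x H) * Nat.card (h.A x t) ≤ Nat.card (N x) := by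
    rw [← Nat.card_prod]; exact Nat.card_le_card_of_injective g hg
  have hxt : x ≠ t := fun e => ht (e ▸ hx)
  have h2 : Nat.card f.ker * Nat.card f.range = Nat.card (N x) := by
    rw [← Subgroup.index_ker]; exact f.ker.card_mul_index
  have h3 : Nat.card f.range ≤ Nat.card (h.S x H) := Subgroup.card_le_card_group _
  have h4 : Nat.card (h.A x y) = Nat.card (h.A x t) := h.card_A hxy hxt
  have h5 : Nat.card (h.S x H) * Nat.card (h.A x t) = Nat.card (N x) := by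
    refine le_antisymm h1 ?_
    rw [← h2, ← h4, mul_comm]
    exact Nat.mul_le_mul h3 hker
  refine ⟨fun a ha => ?_, h5, fun n hn => ?_⟩
  · have hrange : f.range = ⊤ := Subgroup.eq_top_of_le_card _ (by
      by_contra hc
      push Not at hc
      have : Nat.card f.ker * Nat.card f.range < Nat.card (N x) := by
        rw [← h5, ← h4, mul_comm (Nat.card (h.S x H))]
        exact lt_of_le_of_lt (Nat.mul_le_mul_right _ hker) (Nat.mul_lt_mul_of_pos_left hc Nat.card_pos)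
      omega)
    obtain ⟨n, hn⟩ := MonoidHom.range_eq_top.1 hrange ⟨a, ha⟩
    exact ⟨n, n.2, congrArg Subtype.val hn⟩
  · have hb' := (Nat.bijective_iff_injective_and_card g).2 ⟨hg, by rw [Nat.card_prod, h5]⟩
    obtain ⟨⟨s, a⟩, e⟩ := hb'.2 ⟨n, hn⟩
    refine ⟨s, s.2, ?_⟩
    rw [← show (s : G) * a = n from congrArg Subtype.val e]
    show (s : G) • t = ((s : G) * a) • t
    rw [mul_smul, a.2.2]

theorem exists_other {x : X} : ∃ y ∈ H, x ≠ y := by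
  obtain ⟨a, ha, b, hb, hab⟩ := hH.1
  by_cases hxa : x = a
  · exact ⟨b, hb, hxa ▸ hab⟩
  · exact ⟨a, ha, hxa⟩

theorem card_S_mul {x t : X} (hx : x ∈ H) (ht : t ∉ H) :
    Nat.card (h.S x H) * Nat.card (h.A x t) = Nat.card (N x) := by
  obtain ⟨y, hy, hxy⟩ := h.exists_other hH (x := x)
  obtain ⟨b, hb, hb1⟩ := h.exists_S_ne_one hH hy
  exact (h.card_NA hH hxy hy hx hb hb1 ht).2.1

theorem exists_S_smul {x t : X} (hx : x ∈ H) (ht : t ∉ H) {n : G} (hn : n ∈ N x) :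
    ∃ s ∈ h.S x H, s • t = n • t := by
  obtain ⟨y, hy, hxy⟩ := h.exists_other hH (x := x)
  obtain ⟨b, hb, hb1⟩ := h.exists_S_ne_one hH hy
  exact (h.card_NA hH hxy hy hx hb hb1 ht).2.2 n hn

theorem exists_comm {x y : X} (hxy : x ≠ y) (hx : x ∈ H) (hy : y ∈ H) {a b : G} (ha : a ∈ h.S x H)
    (hb : b ∈ h.S y H) (hb1 : b ≠ 1) : ∃ n ∈ N x, n * b * n⁻¹ = a * b := by
  obtain ⟨t, ht⟩ := h.ax_ne_univ hH
  obtain ⟨n, hn, e⟩ := (h.card_NA hH hxy hy hx hb hb1 ht).1 a ha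
  exact ⟨n, hn, mul_inv_eq_iff_eq_mul.1 e⟩

omit hH

theorem left_mem_Lp (x y : X) : x ∈ h.Lp x y := Or.inl rfl

theorem right_mem_Lp (x y : X) : y ∈ h.Lp x y := Or.inr ⟨1, (N x).one_mem, one_smul G y⟩

theorem Lp_sub_Ln {x y : X} (hxy : x ≠ y) : h.Lp x y ⊆ h.Ln x y := by
  rintro z (rfl | ⟨n, hn, rfl⟩)
  · exact h.left_mem_Ln z y
  · exact h.smul_mem_Ln' hxy (h.right_mem_Ln hxy) hn

theorem Lp_swap_sub {x y : X} (hxy : x ≠ y) : h.Lp x y ⊆ h.Lp y x := by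
  rintro z (rfl | ⟨n, hn, rfl⟩)
  · exact h.right_mem_Lp y z
  by_cases hny : n • y = y
  · rw [hny]; exact h.left_mem_Lp y x
  obtain ⟨H, hH, hx, hy⟩ := h.exists_ax hxy
  obtain ⟨b, hb, hb1⟩ := h.exists_S_ne_one hH hy
  have ha := h.comm_mem hH hx hb hn
  have ha1 : n * b * n⁻¹ * b⁻¹ ≠ 1 := fun e =>
    hny (h.smul_eq_of_commute (h.mem_S.1 hb).1 hb1 (mul_inv_eq_one.1 e))
  obtain ⟨m, hm, e⟩ := h.exists_comm hH (Ne.symm hxy) hy hx hb ha ha1
  rw [← h.commute_comm hH hxy hx hy ha hb, inv_mul_cancel_right] at e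
  refine Or.inr ⟨m, hm, ?_⟩
  refine h.centre_unique (g := n * b * n⁻¹) ?_ ?_ (h.conj n y b (h.mem_S.1 hb).1)
  · intro e'
    exact hb1 (conj_eq_one_iff.1 e')
  · exact e ▸ h.conj m x _ (h.mem_S.1 ha).1

theorem Lp_comm {x y : X} (hxy : x ≠ y) : h.Lp y x = h.Lp x y :=
  Set.Subset.antisymm (h.Lp_swap_sub (Ne.symm hxy)) (h.Lp_swap_sub hxy)

theorem Lp_of_mem {x y z : X} (hxz : x ≠ z) (hz : z ∈ h.Lp x y) : h.Lp x z = h.Lp x y := by
  rcases hz with rfl | ⟨n, hn, rfl⟩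
  · exact absurd rfl hxz
  ext w
  constructor
  · rintro (rfl | ⟨m, hm, rfl⟩)
    · exact h.left_mem_Lp w y
    · exact Or.inr ⟨m * n, (N x).mul_mem hm hn, mul_smul m n y⟩
  · rintro (rfl | ⟨m, hm, rfl⟩)
    · exact h.left_mem_Lp w _
    · exact Or.inr ⟨m * n⁻¹, (N x).mul_mem hm ((N x).inv_mem hn), by rw [mul_smul, inv_smul_smul]⟩

theorem Lp_eq {x y u v : X} (hxy : x ≠ y) (huv : u ≠ v) (hu : u ∈ h.Lp x y) (hv : v ∈ h.Lp x y) :
    h.Lp u v = h.Lp x y := by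
  by_cases hux : u = x
  · subst hux; exact h.Lp_of_mem huv hv
  rw [← h.Lp_of_mem (Ne.symm hux) hu, ← h.Lp_comm (Ne.symm hux)] at hv ⊢
  exact h.Lp_of_mem huv hv

theorem fix_Lp {x u v : X} (huv : u ≠ v) {n : G} (hn : n ∈ N x) (hu : n • u = u) (hv : n • v = v) {w : X}
    (hw : w ∈ h.Lp u v) : n • w = w := h.fix_Ln huv hn hu hv (h.Lp_sub_Ln huv hw)

theorem ax_Lp {H : Set X} (hH : h.Ax H) {u v : X} (huv : u ≠ v) (hu : u ∈ H) (hv : v ∈ H) {w : X}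
    (hw : w ∈ h.Lp u v) : w ∈ H := h.ax_subspace hH huv hu hv (h.Lp_sub_Ln huv hw)

theorem card_N (x y : X) : Nat.card (N x) = Nat.card (N y) := by
  by_cases hxy : x = y
  · rw [hxy]
  obtain ⟨g, hgx, hgy⟩ := h.two_trans x y y x hxy (Ne.symm hxy)
  exact Nat.card_congr
    { toFun := fun n => (⟨g * n.1 * g⁻¹, hgx ▸ h.conj g x n.1 n.2⟩ : N y)
      invFun := fun n => (⟨g⁻¹ * n.1 * g, by
        have := h.conj g⁻¹ y n.1 n.2
        rwa [inv_inv, inv_smul_eq_iff.2 hgx.symm] at this⟩ : N x)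
      left_inv := fun n => Subtype.ext (by simp [mul_assoc])
      right_inv := fun n => Subtype.ext (by simp [mul_assoc]) }

theorem orbit_card {x y : X} (hxy : x ≠ y) :
    (MulAction.orbit ↥(N x) y).ncard * Nat.card (h.A x y) = Nat.card (N x) := by
  rw [← MulAction.index_stabilizer, ← (MulAction.stabilizer (↥(N x)) y).index_mul_card]
  congr 1
  exact Nat.card_congr
    { toFun := fun n => (⟨⟨n.1, n.2.1⟩, n.2.2⟩ : MulAction.stabilizer (↥(N x)) y)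
      invFun := fun n => ⟨n.1.1, n.1.2, n.2⟩
      left_inv := fun n => rfl
      right_inv := fun n => rfl }

theorem exists_q : ∃ q, 2 ≤ q ∧ (∀ x y : X, x ≠ y → Nat.card (N x) = q * Nat.card (h.A x y)) ∧
    (∀ x y : X, x ≠ y → (h.Lp x y).ncard = q + 1) ∧ ∀ H x, h.Ax H → x ∈ H → Nat.card (h.S x H) = q := by
  by_cases hX : ∃ x y : X, x ≠ y
  · obtain ⟨a, b, hab⟩ := hX
    have hall : ∀ x y : X, x ≠ y →
        (MulAction.orbit ↥(N x) y).ncard = (MulAction.orbit ↥(N a) b).ncard := by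
      intro x y hxy
      have h1 := h.orbit_card hxy
      rw [h.card_A hxy hab, h.card_N x a, ← h.orbit_card hab] at h1
      exact Nat.eq_of_mul_eq_mul_right Nat.card_pos h1
    refine ⟨(MulAction.orbit ↥(N a) b).ncard, ?_, fun x y hxy => by rw [← hall x y hxy, h.orbit_card hxy],
      fun x y hxy => ?_, fun H x hH hx => ?_⟩
    · obtain ⟨n, hn, hnb⟩ := h.exists_move hab
      exact (Set.one_lt_ncard (Set.toFinite _)).2
        ⟨b, MulAction.mem_orbit_self b, n • b, ⟨⟨n, hn⟩, rfl⟩, fun e => hnb e.symm⟩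
    · have e : h.Lp x y = insert x (MulAction.orbit ↥(N x) y) := by
        ext z
        constructor
        · rintro (rfl | ⟨n, hn, rfl⟩)
          · exact Or.inl rfl
          · exact Or.inr ⟨⟨n, hn⟩, rfl⟩
        · rintro (rfl | ⟨⟨n, hn⟩, rfl⟩)
          · exact Or.inl rfl
          · exact Or.inr ⟨n, hn, rfl⟩
      rw [e, Set.ncard_insert_of_notMem ?_ (Set.toFinite _), hall x y hxy]
      rintro ⟨⟨n, hn⟩, e'⟩
      exact hxy (MulAction.injective n ((h.fix x n hn).trans e'.symm))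
    · obtain ⟨t, ht⟩ := h.ax_ne_univ hH
      have h1 := h.card_S_mul hH hx ht
      have hxt : x ≠ t := fun e => ht (e ▸ hx)
      rw [← h.orbit_card hxt, hall x t hxt] at h1
      exact Nat.eq_of_mul_eq_mul_right Nat.card_pos h1
  · push Not at hX
    exact ⟨2, le_rfl, fun x y e => absurd (hX x y) e, fun x y e => absurd (hX x y) e, fun H x hH => absurd hH.1 (by
      rintro ⟨a, -, b, -, hab⟩; exact hab (hX a b))⟩

/-- The number of points on a line, less one. -/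
noncomputable def q : ℕ := h.exists_q.choose

theorem two_le_q : 2 ≤ h.q := h.exists_q.choose_spec.1

theorem card_N_eq {x y : X} (hxy : x ≠ y) : Nat.card (N x) = h.q * Nat.card (h.A x y) :=
  h.exists_q.choose_spec.2.1 x y hxy

theorem card_Lp {x y : X} (hxy : x ≠ y) : (h.Lp x y).ncard = h.q + 1 := h.exists_q.choose_spec.2.2.1 x y hxy

theorem card_S {H : Set X} {x : X} (hH : h.Ax H) (hx : x ∈ H) : Nat.card (h.S x H) = h.q :=
  h.exists_q.choose_spec.2.2.2 H x hH hx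

theorem not_mem_Lp {x y u : X} (hxy : x ≠ y) (hu : u ∉ h.Lp x y) : x ∉ h.Lp y u ∧ y ≠ u ∧ x ≠ u := by
  have hyu : y ≠ u := fun e => hu (e ▸ h.right_mem_Lp x y)
  have hxu : x ≠ u := fun e => hu (e ▸ h.left_mem_Lp x y)
  refine ⟨fun e => hu ?_, hyu, hxu⟩
  rw [h.Lp_eq hyu hxy e (h.left_mem_Lp y u)]
  exact h.right_mem_Lp y u

theorem card_cover {x y u : X} (hyu : y ≠ u) (hx : x ∉ h.Lp y u) :
    {n : G | ∃ w ∈ h.Lp y u, n ∈ h.A x w}.ncard + (h.q + 1) * Nat.card ↥(h.A x y ⊓ h.A x u) =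
      Nat.card ↥(h.A x y ⊓ h.A x u) + (h.q + 1) * Nat.card (h.A x y) := by
  classical
  haveI := Fintype.ofFinite G
  haveI := Fintype.ofFinite X
  have hxy : x ≠ y := fun e => hx (e ▸ h.left_mem_Lp y u)
  let K : Subgroup G := h.A x y ⊓ h.A x u
  have hK : ∀ w ∈ h.Lp y u, K ≤ h.A x w := fun w hw n hn => ⟨hn.1.1, h.fix_Lp hyu hn.1.1 hn.1.2 hn.2.2 hw⟩
  have hpair : ∀ w ∈ h.Lp y u, ∀ w' ∈ h.Lp y u, w ≠ w' → ∀ n, n ∈ h.A x w → n ∈ h.A x w' → n ∈ K := by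
    intro w hw w' hw' hne n h1 h2
    have e := h.Lp_eq hyu hne hw hw'
    exact ⟨⟨h1.1, h.fix_Lp hne h1.1 h1.2 h2.2 (e ▸ h.left_mem_Lp y u)⟩,
      h1.1, h.fix_Lp hne h1.1 h1.2 h2.2 (e ▸ h.right_mem_Lp y u)⟩
  let L : Finset X := (h.Lp y u).toFinite.toFinset
  let P : X → Finset G := fun w => Finset.univ.filter fun n => n ∈ h.A x w ∧ n ∉ K
  have hP : ∀ w ∈ L, (P w).card = Nat.card (h.A x y) - Nat.card K := by
    intro w hw
    have hw' : w ∈ h.Lp y u := (Set.Finite.mem_toFinset _).1 hw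
    have hxw : x ≠ w := fun e => hx (e ▸ hw')
    rw [← Set.ncard_coe_finset, h.card_A hxy hxw,
      show ((P w : Finset G) : Set G) = (h.A x w : Set G) \ (K : Set G) by ext n; simp [P],
      Set.ncard_diff (hK w hw') (Set.toFinite _), ← Nat.card_coe_set_eq, ← Nat.card_coe_set_eq]
    rfl
  have hdisj : (L : Set X).PairwiseDisjoint P := by
    intro w hw w' hw' hne
    refine Finset.disjoint_left.2 fun n hn hn' => ?_
    simp only [P, Finset.mem_filter] at hn hn'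
    exact hn.2.2 (hpair w ((Set.Finite.mem_toFinset _).1 hw) w' ((Set.Finite.mem_toFinset _).1 hw') hne n hn.2.1
      hn'.2.1)
  have e : {n : G | ∃ w ∈ h.Lp y u, n ∈ h.A x w} = ((L.biUnion P : Finset G) : Set G) ∪ (K : Set G) := by
    ext n
    simp only [L, P, Set.mem_setOf_eq, Set.mem_union, Finset.coe_biUnion, Set.mem_iUnion, Finset.mem_coe,
      Finset.mem_filter, Finset.mem_univ, true_and, Set.Finite.mem_toFinset, SetLike.mem_coe, exists_prop]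
    constructor
    · rintro ⟨w, hw, hn⟩
      by_cases hnK : n ∈ K
      · exact Or.inr hnK
      · exact Or.inl ⟨w, hw, hn, hnK⟩
    · rintro (⟨w, hw, hn, -⟩ | hn)
      · exact ⟨w, hw, hn⟩
      · exact ⟨y, h.left_mem_Lp y u, hn.1⟩
  rw [e, Set.ncard_union_eq ?_ (Set.toFinite _) (Set.toFinite _), Set.ncard_coe_finset, Finset.card_biUnion hdisj,
    Finset.sum_congr rfl hP, Finset.sum_const, smul_eq_mul, ← Nat.card_coe_set_eq (K : Set G)]
  · have hL : L.card = h.q + 1 := by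
      rw [← Set.ncard_eq_toFinset_card, h.card_Lp hyu]
    rw [hL, show Nat.card ((K : Set G) : Type _) = Nat.card ↥(h.A x y ⊓ h.A x u) from rfl]
    have hle : Nat.card ↥(h.A x y ⊓ h.A x u) ≤ Nat.card (h.A x y) :=
      Nat.le_of_dvd Nat.card_pos (Subgroup.card_dvd_of_le inf_le_left)
    have := Nat.mul_le_mul_left (h.q + 1) hle
    show (h.q + 1) * (Nat.card (h.A x y) - Nat.card ↥(h.A x y ⊓ h.A x u)) + _ + _ = _
    rw [Nat.mul_sub]
    omega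
  · rw [Set.disjoint_left]
    intro n hn hnK
    simp only [P, Finset.coe_biUnion, Set.mem_iUnion, Finset.mem_coe, Finset.mem_filter] at hn
    obtain ⟨w, -, -, -, hn⟩ := hn
    exact hn hnK

/-- Inside an axis, every element fixes a point of a line. -/
theorem cover_inside {H : Set X} (hH : h.Ax H) {x y u : X} (hx : x ∈ H) (hy : y ∈ H) (hu : u ∈ H) (hyu : y ≠ u)
    (hxL : x ∉ h.Lp y u) {n : G} (hn : n ∈ N x) : ∃ w ∈ h.Lp y u, n • w = w := by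
  classical
  have hxy : x ≠ y := fun e => hxL (e ▸ h.left_mem_Lp y u)
  have hxu : x ≠ u := fun e => hxL (e ▸ h.right_mem_Lp y u)
  have hmul : ∀ {v : X}, x ≠ v → v ∈ H → ∀ b b' : G, b ∈ h.S v H → b' ∈ h.S v H →
      n * (b * b') * n⁻¹ * (b * b')⁻¹ = n * b * n⁻¹ * b⁻¹ * (n * b' * n⁻¹ * b'⁻¹) := by
    intro v hxv hv b b' hb hb'
    have hc := h.commute_comm hH hxv hx hv (h.comm_mem hH hx hb' hn) hb
    rw [show n * (b * b') * n⁻¹ * (b * b')⁻¹ = n * b * n⁻¹ * ((n * b' * n⁻¹ * b'⁻¹) * b⁻¹) by group]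
    calc n * b * n⁻¹ * ((n * b' * n⁻¹ * b'⁻¹) * b⁻¹)
        = n * b * n⁻¹ * b⁻¹ * (b * (n * b' * n⁻¹ * b'⁻¹)) * b⁻¹ := by group
      _ = n * b * n⁻¹ * b⁻¹ * (n * b' * n⁻¹ * b'⁻¹) := by rw [← hc]; group
  let f : ↥(h.S y H) × ↥(h.S u H) →* ↥(h.S x H) := MonoidHom.mk'
    (fun q => ⟨_, (h.S x H).mul_mem (h.comm_mem hH hx q.1.2 hn) (h.comm_mem hH hx q.2.2 hn)⟩)
    fun q q' => Subtype.ext (by
      show n * ((q.1 : G) * q'.1) * n⁻¹ * ((q.1 : G) * q'.1)⁻¹ * (n * ((q.2 : G) * q'.2) * n⁻¹ * ((q.2 : G) * q'.2)⁻¹) =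
        n * q.1 * n⁻¹ * (q.1 : G)⁻¹ * (n * q.2 * n⁻¹ * (q.2 : G)⁻¹) *
          (n * q'.1 * n⁻¹ * (q'.1 : G)⁻¹ * (n * q'.2 * n⁻¹ * (q'.2 : G)⁻¹))
      rw [hmul hxy hy _ _ q.1.2 q'.1.2, hmul hxu hu _ _ q.2.2 q'.2.2]
      generalize hA : n * (q'.1 : G) * n⁻¹ * (q'.1 : G)⁻¹ = A
      generalize hB : n * (q.2 : G) * n⁻¹ * (q.2 : G)⁻¹ = B
      have : A * B = B * A := h.comm x _ (hA ▸ (h.mem_S.1 (h.comm_mem hH hx q'.1.2 hn)).1) _
        (hB ▸ (h.mem_S.1 (h.comm_mem hH hx q.2.2 hn)).1)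
      simp only [mul_assoc]
      rw [← mul_assoc A B, this, mul_assoc])
  have hker : f.ker ≠ ⊥ := by
    intro e
    have h1 := Nat.card_le_card_of_injective f ((MonoidHom.ker_eq_bot_iff f).1 e)
    rw [Nat.card_prod, h.card_S hH hy, h.card_S hH hu, h.card_S hH hx] at h1
    have := Nat.mul_le_mul_right h.q h.two_le_q
    have := h.two_le_q
    omega
  obtain ⟨⟨⟨⟨b, hb⟩, ⟨c, hc⟩⟩, hker'⟩, hne⟩ := Subgroup.ne_bot_iff_exists_ne_one.1 hker
  have he : n * b * n⁻¹ * b⁻¹ * (n * c * n⁻¹ * c⁻¹) = 1 := congrArg Subtype.val hker'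
  have hbc : n * (b * c) * n⁻¹ = b * c := by
    have hC := h.commute_comm hH hxy hx hy (h.comm_mem hH hx hc hn) hb
    calc n * (b * c) * n⁻¹ = n * b * n⁻¹ * ((n * c * n⁻¹ * c⁻¹) * c) := by group
      _ = n * b * n⁻¹ * b⁻¹ * (b * (n * c * n⁻¹ * c⁻¹)) * c := by group
      _ = (n * b * n⁻¹ * b⁻¹ * (n * c * n⁻¹ * c⁻¹)) * (b * c) := by rw [← hC]; group
      _ = b * c := by rw [he, one_mul]
  have hbc1 : b * c ≠ 1 := by
    intro e
    have hbu : b ∈ N u := by rw [mul_eq_one_iff_eq_inv.1 e]; exact (N u).inv_mem (h.mem_S.1 hc).1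
    have hb1 := h.N_inf hyu (h.mem_S.1 hb).1 hbu
    refine hne (Subtype.ext (Prod.ext (Subtype.ext hb1) (Subtype.ext ?_)))
    rwa [hb1, one_mul] at e
  obtain ⟨w, hw, hwN⟩ : ∃ w ∈ h.Lp y u, b * c ∈ N w := by
    by_cases hc1 : c = 1
    · exact ⟨y, h.left_mem_Lp y u, by rw [hc1, mul_one]; exact (h.mem_S.1 hb).1⟩
    obtain ⟨m, hm, e⟩ := h.exists_comm hH hyu hy hu hb hc hc1
    exact ⟨m • u, Or.inr ⟨m, hm, rfl⟩, e ▸ h.conj m u c (h.mem_S.1 hc).1⟩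
  exact ⟨w, hw, h.smul_eq_of_commute hwN hbc1 hbc⟩

theorem prod_range {x y u : X} : ∃ R : Subgroup ↥(N x),
    Nat.card R * Nat.card ↥(h.A x y ⊓ h.A x u) = Nat.card (h.A x y) * Nat.card (h.A x u) ∧
      ∀ n : ↥(N x), n ∈ R ↔ ∃ a ∈ h.A x y, ∃ a' ∈ h.A x u, (n : G) = a * a' := by
  let f : ↥(h.A x y) × ↥(h.A x u) →* ↥(N x) := MonoidHom.mk'
    (fun q => ⟨(q.1 : G) * q.2, (N x).mul_mem q.1.2.1 q.2.2.1⟩) fun q q' => Subtype.ext (by
      show (q.1 : G) * q'.1 * ((q.2 : G) * q'.2) = (q.1 : G) * q.2 * ((q'.1 : G) * q'.2)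
      simp only [mul_assoc]
      rw [← mul_assoc (q'.1 : G) (q.2 : G), h.comm x _ q'.1.2.1 _ q.2.2.1, mul_assoc])
  have h1 : Nat.card f.ker = Nat.card ↥(h.A x y ⊓ h.A x u) := Nat.card_congr
    { toFun := fun q => (⟨(q.1.1 : G), q.1.1.2, by
          have e : (q.1.1 : G) * q.1.2 = 1 := congrArg Subtype.val q.2
          rw [mul_eq_one_iff_eq_inv.1 e]
          exact (h.A x u).inv_mem q.1.2.2⟩ : ↥(h.A x y ⊓ h.A x u))
      invFun := fun a => (⟨(⟨a.1, a.2.1⟩, ⟨a.1⁻¹, (h.A x u).inv_mem a.2.2⟩), Subtype.ext (mul_inv_cancel _)⟩ : f.ker)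
      left_inv := fun q => by
        have e : (q.1.1 : G) * q.1.2 = 1 := congrArg Subtype.val q.2
        exact Subtype.ext (Prod.ext rfl (Subtype.ext (inv_eq_of_mul_eq_one_right e)))
      right_inv := fun a => rfl }
  refine ⟨f.range, ?_, fun n => ⟨?_, ?_⟩⟩
  · rw [← Nat.card_prod (↥(h.A x y)), ← f.ker.card_mul_index, Subgroup.index_ker, h1, mul_comm]
  · rintro ⟨⟨a, a'⟩, rfl⟩; exact ⟨a, a.2, a', a'.2, rfl⟩
  · rintro ⟨a, ha, a', ha', e⟩; exact ⟨(⟨a, ha⟩, ⟨a', ha'⟩), Subtype.ext e.symm⟩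

theorem prod_card {x y u : X} (hne : ∀ n ∈ N x, ∃ a ∈ h.A x y, ∃ a' ∈ h.A x u, n = a * a') :
    Nat.card (N x) * Nat.card ↥(h.A x y ⊓ h.A x u) = Nat.card (h.A x y) * Nat.card (h.A x u) := by
  obtain ⟨R, hR, hmem⟩ := h.prod_range (x := x) (y := y) (u := u)
  rw [← hR, show R = ⊤ from eq_top_iff.2 fun n _ => (hmem n).2 (hne n n.2), Subgroup.card_top]

/-- The subgroups belonging to two lines through a point generate. -/
theorem supplement {x y u : X} (hxy : x ≠ y) (hu : u ∉ h.Lp x y) :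
    ∀ n ∈ N x, ∃ a ∈ h.A x y, ∃ a' ∈ h.A x u, n = a * a' := by
  classical
  obtain ⟨hxL, hyu, hxu⟩ := h.not_mem_Lp hxy hu
  obtain ⟨H, hH, hx, hy⟩ := h.exists_ax hxy
  by_cases huH : u ∈ H
  · by_contra hne
    have hA2 := h.card_N_eq hxy
    have hlt : Nat.card (h.A x y) < h.q * Nat.card ↥(h.A x y ⊓ h.A x u) := by
      obtain ⟨R, hR, hmem⟩ := h.prod_range (x := x) (y := y) (u := u)
      rw [h.card_A hxu hxy] at hR
      have hRlt : Nat.card R < Nat.card (N x) := by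
        rcases (Subgroup.card_le_card_group R).lt_or_eq with hlt | heq
        · exact hlt
        · exact absurd (fun n hn => (hmem ⟨n, hn⟩).1 (Subgroup.eq_top_of_card_eq R heq ▸ Subgroup.mem_top _)) hne
      have h3 := Nat.mul_lt_mul_of_pos_right hRlt (Nat.card_pos (α := ↥(h.A x y ⊓ h.A x u)))
      rw [hR, hA2, show h.q * Nat.card (h.A x y) * Nat.card ↥(h.A x y ⊓ h.A x u) =
        Nat.card (h.A x y) * (h.q * Nat.card ↥(h.A x y ⊓ h.A x u)) by ring] at h3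
      exact Nat.lt_of_mul_lt_mul_left h3
    have hcov : (N x : Set G) ⊆ {n : G | ∃ w ∈ h.Lp y u, n ∈ h.A x w} := fun n hn => by
      obtain ⟨w, hw, e⟩ := h.cover_inside hH hx hy huH hyu hxL hn
      exact ⟨w, hw, hn, e⟩
    have h1 := Set.ncard_le_ncard hcov (Set.toFinite _)
    rw [← Nat.card_coe_set_eq] at h1
    change Nat.card (N x) ≤ _ at h1
    have h2 := h.card_cover hyu hxL
    rw [hA2] at h1
    rw [add_mul, add_mul, one_mul, one_mul] at h2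
    omega
  · intro n hn
    obtain ⟨s, hs, e⟩ := h.exists_S_smul hH hx huH hn
    exact ⟨s, h.S_le_A hy hs, s⁻¹ * n, ⟨(N x).mul_mem ((N x).inv_mem (h.mem_S.1 hs).1) hn, by
      show (s⁻¹ * n) • u = u
      rw [mul_smul, inv_smul_eq_iff, e]⟩, (mul_inv_cancel_left s n).symm⟩

/-- Every element fixes a point of every line. -/
theorem meets {x : X} {n : G} (hn : n ∈ N x) {y u : X} (hyu : y ≠ u) : ∃ w ∈ h.Lp y u, n • w = w := by
  classical
  by_cases hxL : x ∈ h.Lp y u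
  · exact ⟨x, hxL, h.fix x n hn⟩
  have hxy : x ≠ y := fun e => hxL (e ▸ h.left_mem_Lp y u)
  have hu : u ∉ h.Lp x y := fun e => hxL (by
    rw [h.Lp_eq hxy hyu (h.right_mem_Lp x y) e]; exact h.left_mem_Lp x y)
  have hxu : x ≠ u := fun e => hxL (e ▸ h.right_mem_Lp y u)
  have h1 := h.prod_card (h.supplement hxy hu)
  rw [h.card_N_eq hxy, h.card_A hxu hxy] at h1
  have h1' : Nat.card (h.A x y) = h.q * Nat.card ↥(h.A x y ⊓ h.A x u) :=
    Nat.eq_of_mul_eq_mul_left Nat.card_pos (by rw [← h1]; ring)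
  have h2 := h.card_cover hyu hxL
  have hsub : {n : G | ∃ w ∈ h.Lp y u, n ∈ h.A x w} ⊆ (N x : Set G) := fun m ⟨w, _, hm⟩ => hm.1
  have h3 : {n : G | ∃ w ∈ h.Lp y u, n ∈ h.A x w} = (N x : Set G) := by
    refine Set.eq_of_subset_of_ncard_le hsub ?_ (Set.toFinite _)
    rw [← Nat.card_coe_set_eq (N x : Set G)]
    show Nat.card (N x) ≤ _
    rw [h.card_N_eq hxy]
    rw [h1'] at h2 ⊢
    nlinarith
  obtain ⟨w, hw, hnw⟩ := (Set.ext_iff.1 h3 n).2 hn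
  exact ⟨w, hw, hnw.2⟩

theorem exists_off_line {x : X} (hX : ∃ y, x ≠ y) : ∃ u v : X, u ≠ v ∧ x ∉ h.Lp u v := by
  obtain ⟨u, hxu⟩ := hX
  obtain ⟨v, hv⟩ := h.exists_not_mem_Ln hxu
  obtain ⟨h1, h2, -⟩ := h.not_mem_Lp hxu (fun e => hv (h.Lp_sub_Ln hxu e))
  exact ⟨u, v, h2, h1⟩

/-- The fixed point set of a nontrivial element is an axis. -/
theorem ax_Fx {x : X} {n : G} (hn : n ∈ N x) (hn1 : n ≠ 1) : h.Ax (Fx X n) := by
  obtain ⟨t, ht⟩ : ∃ t, n • t ≠ t := by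
    by_contra hc
    push Not at hc
    exact hn1 (h.faithful n hc)
  have hxt : x ≠ t := fun e => ht (e ▸ h.fix x n hn)
  obtain ⟨u, v, huv, hxL⟩ := h.exists_off_line ⟨t, hxt⟩
  obtain ⟨w, hw, hnw⟩ := h.meets hn huv
  refine ⟨⟨x, h.fix x n hn, w, hnw, fun e => hxL (e ▸ hw)⟩, ⟨x, n, hn, hn1, rfl⟩, fun z s hs hs1 hsub => ?_⟩
  refine Set.Subset.antisymm (fun a ha => ?_) hsub
  by_contra hna
  obtain ⟨t', ht'⟩ : ∃ t', s • t' ≠ t' := by
    by_contra hc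
    push Not at hc
    exact hs1 (h.faithful s hc)
  have hat : a ≠ t' := fun e => ht' (e ▸ ha)
  obtain ⟨c, hc, hnc⟩ := h.meets hn hat
  have hac : a ≠ c := fun e => hna (e ▸ hnc)
  exact ht' (h.fix_Lp hac hs ha (hsub hnc) (h.Lp_eq hat hac (h.left_mem_Lp a t') hc ▸ h.right_mem_Lp a t'))

theorem ax_meets {H : Set X} (hH : h.Ax H) {y u : X} (hyu : y ≠ u) : ∃ w ∈ h.Lp y u, w ∈ H := by
  obtain ⟨z, s, hs, hs1, rfl⟩ := hH.2.1
  exact h.meets hs hyu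

end Fam

end Cfsg.Agent.ONanPSL
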