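import Mathlib

/-!
Doubly transitive groups in which a point stabilizer has an abelian normal `p`-subgroup that is not semiregular
on the other points: the lines.
-/

set_option autoImplicit false
set_option linter.all false

namespace Cfsg.Agent.ONanPSL

/-- A family of abelian `p`-subgroups, one for each point, permuted like the points, each fixing its point and
not semiregular on the other points. -/
structure Fam (G X : Type*) [Group G] [MulAction G X] (N : X → Subgroup G) (p : ℕ) : Prop where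
  pprime : p.Prime
  pgroup : ∀ x, IsPGroup p (N x)
  comm : ∀ x, ∀ a ∈ N x, ∀ b ∈ N x, a * b = b * a
  conj : ∀ (g : G) (x : X) (n : G), n ∈ N x → g * n * g⁻¹ ∈ N (g • x)
  fix : ∀ x, ∀ n ∈ N x, n • x = x
  faithful : ∀ g : G, (∀ x : X, g • x = x) → g = 1
  two_trans : ∀ a b c d : X, a ≠ b → c ≠ d → ∃ g : G, g • a = c ∧ g • b = d
  nsr : ∀ x y : X, x ≠ y → ∃ a ∈ N x, a ≠ 1 ∧ a • y = y

/-- A `p`-group moving a point, normalised by a `p`-group fixing it, moves it to another fixed point. -/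
theorem exists_fixed {G Y : Type*} [Group G] [Finite G] [MulAction G Y] [Finite Y] {p : ℕ} (hp : p.Prime)
    {V B : Subgroup G} (hV : IsPGroup p V) (hB : IsPGroup p B) (hn : ∀ b ∈ B, ∀ v ∈ V, b * v * b⁻¹ ∈ V) (y : Y)
    (hy : ∀ b ∈ B, b • y = y) (hmove : ∃ v ∈ V, v • y ≠ y) :
    ∃ v ∈ V, v • y ≠ y ∧ ∀ b ∈ B, b • v • y = v • y := by
  haveI : Fact p.Prime := ⟨hp⟩
  let O : SubMulAction B Y :=
    { carrier := MulAction.orbit V y
      smul_mem' := fun b z hz => by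
        obtain ⟨v, rfl⟩ := hz
        refine ⟨⟨(b : G) * v * (b : G)⁻¹, hn b b.2 v v.2⟩, ?_⟩
        show ((b : G) * v * (b : G)⁻¹) • y = (b : G) • (v : G) • y
        rw [← hy b b.2, ← mul_smul, ← mul_smul, inv_mul_cancel_right, hy b b.2] }
  have hyO : y ∈ O := MulAction.mem_orbit_self y
  have hdvd : p ∣ Nat.card O := by
    obtain ⟨j, hj⟩ := hV.card_orbit y
    obtain ⟨v, hv, hvy⟩ := hmove
    have hlt : 1 < (MulAction.orbit V y).ncard :=
      (Set.one_lt_ncard (Set.toFinite _)).2 ⟨y, MulAction.mem_orbit_self y, v • y, ⟨⟨v, hv⟩, rfl⟩, fun e => hvy e.symm⟩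
    have e1 : Nat.card O = p ^ j := hj
    rw [← Nat.card_coe_set_eq, hj] at hlt
    rw [e1]
    exact dvd_pow_self p (fun e => by subst e; simp at hlt)
  have hfix : (⟨y, hyO⟩ : O) ∈ MulAction.fixedPoints B O := fun b => Subtype.ext (hy b b.2)
  obtain ⟨z, hz, hzy⟩ := hB.exists_fixed_point_of_prime_dvd_card_of_fixed_point O hdvd hfix
  obtain ⟨v, hv⟩ := (show (z : Y) ∈ MulAction.orbit V y from z.2)
  have hv' : (v : G) • y = (z : Y) := hv
  exact ⟨v, v.2, fun e => hzy (Subtype.ext (e.symm.trans hv')), fun b hb => by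
    rw [hv']; exact congrArg Subtype.val (hz ⟨b, hb⟩)⟩

/-- A `p`-group acting on a set has as many points as fixed points modulo `p`. -/
theorem ncard_modEq {G Y : Type*} [Group G] [MulAction G Y] [Finite Y] {p : ℕ} (hp : p.Prime) {R : Subgroup G}
    (hR : IsPGroup p R) (S : Set Y) (hS : ∀ r ∈ R, ∀ z ∈ S, r • z ∈ S) :
    S.ncard ≡ {z | z ∈ S ∧ ∀ r ∈ R, r • z = z}.ncard [MOD p] := by
  haveI : Fact p.Prime := ⟨hp⟩
  let O : SubMulAction R Y := { carrier := S, smul_mem' := fun r z hz => hS r r.2 z hz }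
  have h1 := hR.card_modEq_card_fixedPoints O
  have e : Nat.card (MulAction.fixedPoints R O) = Nat.card {z | z ∈ S ∧ ∀ r ∈ R, r • z = z} :=
    Nat.card_congr
      { toFun := fun w => ⟨(w.1 : Y), w.1.2, fun r hr => congrArg Subtype.val (w.2 ⟨r, hr⟩)⟩
        invFun := fun w => ⟨⟨w.1, w.2.1⟩, fun r => Subtype.ext (w.2.2 r r.2)⟩
        left_inv := fun w => rfl
        right_inv := fun w => rfl }
  rw [e, Nat.card_coe_set_eq] at h1
  rwa [show Nat.card O = S.ncard from Nat.card_coe_set_eq S] at h1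

namespace Fam

variable {G X : Type*} [Group G] [MulAction G X] {N : X → Subgroup G} {p : ℕ}

/-- The elements of `N x` fixing `y`. -/
def A (_h : Fam G X N p) (x y : X) : Subgroup G := N x ⊓ MulAction.stabilizer G y

/-- The group generated by the elements of `N x` fixing `y` and those of `N y` fixing `x`. -/
def E (h : Fam G X N p) (x y : X) : Subgroup G := h.A x y ⊔ h.A y x

/-- The normalizer of `E x y`. -/
def K (h : Fam G X N p) (x y : X) : Subgroup G := Subgroup.normalizer (h.E x y : Set G)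

/-- The line through `x` and `y`, first form. -/
def Ln (h : Fam G X N p) (x y : X) : Set X := {z | ∃ g ∈ h.K x y, g • x = z}

variable (h : Fam G X N p) [Finite G] [Finite X]
include h


theorem mem_A {x y : X} {g : G} : g ∈ h.A x y ↔ g ∈ N x ∧ g • y = y := Iff.rfl

theorem A_conj (g : G) {x y : X} {n : G} (hn : n ∈ h.A x y) : g * n * g⁻¹ ∈ h.A (g • x) (g • y) :=
  ⟨h.conj g x n hn.1, by
    show (g * n * g⁻¹) • g • y = g • y
    rw [mul_smul, mul_smul, inv_smul_smul, hn.2]⟩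

theorem A_card (g : G) (x y : X) : Nat.card (h.A (g • x) (g • y)) = Nat.card (h.A x y) :=
  (Nat.card_congr (α := h.A x y) (β := h.A (g • x) (g • y))
    { toFun := fun n => (⟨g * n.1 * g⁻¹, h.A_conj g n.2⟩ : h.A (g • x) (g • y))
      invFun := fun n => (⟨g⁻¹ * n.1 * g, by simpa using h.A_conj g⁻¹ n.2⟩ : h.A x y)
      left_inv := fun n => Subtype.ext (by simp [mul_assoc])
      right_inv := fun n => Subtype.ext (by simp [mul_assoc]) }).symm

theorem card_A {x y x' y' : X} (hxy : x ≠ y) (hxy' : x' ≠ y') : Nat.card (h.A x y) = Nat.card (h.A x' y') := by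
  obtain ⟨g, rfl, rfl⟩ := h.two_trans x y x' y' hxy hxy'
  rw [h.A_card]

theorem A_eq {x y z : X} (hxy : x ≠ y) (hxz : x ≠ z) (hle : h.A x y ≤ h.A x z) : h.A x z = h.A x y :=
  (Subgroup.eq_of_le_of_card_ge hle (h.card_A hxy hxz).ge).symm

/-- `N x` moves every other point. -/
theorem exists_move {x y : X} (hxy : x ≠ y) : ∃ n ∈ N x, n • y ≠ y := by
  by_contra hc
  push Not at hc
  obtain ⟨a, ha, ha1, -⟩ := h.nsr x y hxy
  refine ha1 (h.faithful a fun z => ?_)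
  by_cases hz : x = z
  · exact hz ▸ h.fix x a ha
  obtain ⟨g, hgx, hgy⟩ := h.two_trans x y x z hxy hz
  have h1 : g⁻¹ * a * g ∈ N x := by
    have := h.conj g⁻¹ x a ha
    rwa [inv_inv, inv_smul_eq_iff.2 hgx.symm] at this
  have h2 := hc _ h1
  rwa [mul_smul, mul_smul, hgy, inv_smul_eq_iff, hgy] at h2


theorem E_comm (x y : X) : h.E x y = h.E y x := sup_comm _ _

theorem E_fix {x y : X} {g : G} (hg : g ∈ h.E x y) : g • x = x ∧ g • y = y := by
  have h1 : h.E x y ≤ MulAction.stabilizer G x ⊓ MulAction.stabilizer G y := sup_le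
    (fun a ha => ⟨h.fix x a ha.1, ha.2⟩) (fun a ha => ⟨ha.2, h.fix y a ha.1⟩)
  exact h1 hg

theorem E_conj (g : G) {x y : X} {n : G} (hn : n ∈ h.E x y) : g * n * g⁻¹ ∈ h.E (g • x) (g • y) := by
  have h1 : h.E x y ≤ (h.E (g • x) (g • y)).comap (MulAut.conj g).toMonoidHom := sup_le
    (fun a ha => Subgroup.mem_sup_left (h.A_conj g ha)) (fun a ha => Subgroup.mem_sup_right (h.A_conj g ha))
  exact h1 hn

theorem E_conj_iff (g : G) {x y : X} {n : G} : g * n * g⁻¹ ∈ h.E (g • x) (g • y) ↔ n ∈ h.E x y :=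
  ⟨fun hn => by simpa [mul_assoc] using h.E_conj g⁻¹ hn, h.E_conj g⟩

theorem card_E {x y x' y' : X} (hxy : x ≠ y) (hxy' : x' ≠ y') : Nat.card (h.E x y) = Nat.card (h.E x' y') := by
  obtain ⟨g, rfl, rfl⟩ := h.two_trans x y x' y' hxy hxy'
  exact Nat.card_congr
    { toFun := fun n => ⟨g * n.1 * g⁻¹, h.E_conj g n.2⟩
      invFun := fun n => ⟨g⁻¹ * n.1 * g, by simpa using h.E_conj g⁻¹ n.2⟩
      left_inv := fun n => Subtype.ext (by simp [mul_assoc])
      right_inv := fun n => Subtype.ext (by simp [mul_assoc]) }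


theorem K_comm (x y : X) : h.K x y = h.K y x := by rw [K, K, h.E_comm]

theorem mem_K {x y : X} {g : G} : g ∈ h.K x y ↔ ∀ n, n ∈ h.E x y ↔ g * n * g⁻¹ ∈ h.E x y :=
  Subgroup.mem_normalizer_iff

theorem E_le_K (x y : X) : h.E x y ≤ h.K x y := Subgroup.le_normalizer


theorem Ln_fix {x y : X} {z : X} (hz : z ∈ h.Ln x y) {g : G} (hg : g ∈ h.E x y) : g • z = z := by
  obtain ⟨k, hk, rfl⟩ := hz
  have h1 : k⁻¹ * g * k ∈ h.E x y := by
    have := (h.mem_K.1 ((h.K x y).inv_mem hk) g).1 hg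
    rwa [inv_inv] at this
  have h2 := (h.E_fix h1).1
  rw [mul_smul, mul_smul, inv_smul_eq_iff] at h2
  exact h2

theorem left_mem_Ln (x y : X) : x ∈ h.Ln x y := ⟨1, (h.K x y).one_mem, one_smul G x⟩

theorem smul_mem_Ln {x y z : X} {g : G} (hg : g ∈ h.K x y) (hz : z ∈ h.Ln x y) : g • z ∈ h.Ln x y := by
  obtain ⟨k, hk, rfl⟩ := hz
  exact ⟨g * k, (h.K x y).mul_mem hg hk, mul_smul g k x⟩

theorem A_of_mem_Ln {x y z : X} (hxy : x ≠ y) (hxz : x ≠ z) (hz : z ∈ h.Ln x y) : h.A x z = h.A x y :=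
  h.A_eq hxy hxz fun a ha => ⟨ha.1, h.Ln_fix hz (Subgroup.mem_sup_left ha)⟩

theorem exists_move_in_K {x y : X} (hxy : x ≠ y) : ∃ n ∈ N x, n ∈ h.K x y ∧ n • y ≠ y := by
  have hB : IsPGroup p (h.A y x) := (h.pgroup y).to_le inf_le_left
  obtain ⟨n, hn, hny, hb⟩ := exists_fixed h.pprime (h.pgroup x) hB
    (fun b hb v hv => by have := h.conj b x v hv; rwa [hb.2] at this) y (fun b hb => h.fix y b hb.1)
    (h.exists_move hxy)
  refine ⟨n⁻¹, (N x).inv_mem hn, ?_, fun e => hny (inv_smul_eq_iff.1 e).symm⟩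
  refine (Subgroup.mem_normalizer_fintype (S := (h.E x y : Set G)) ?_)
  intro g hg
  show n⁻¹ * g * n⁻¹⁻¹ ∈ h.E x y
  rw [inv_inv]
  have h1 : h.E x y ≤ (h.E x y).comap (MulAut.conj n⁻¹).toMonoidHom := by
    refine sup_le (fun a ha => ?_) (fun b hb' => ?_)
    · show n⁻¹ * a * n⁻¹⁻¹ ∈ h.E x y
      rw [inv_inv, mul_assoc, h.comm x a ha.1 n hn, inv_mul_cancel_left]
      exact Subgroup.mem_sup_left ha
    · show n⁻¹ * b * n⁻¹⁻¹ ∈ h.E x y
      rw [inv_inv]
      have hmem : n⁻¹ * b * n * b⁻¹ ∈ h.A x y := by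
        refine ⟨?_, ?_⟩
        · have h2 : b * n * b⁻¹ ∈ N x := by have := h.conj b x n hn; rwa [hb'.2] at this
          rw [show n⁻¹ * b * n * b⁻¹ = n⁻¹ * (b * n * b⁻¹) by group]
          exact (N x).mul_mem ((N x).inv_mem hn) h2
        · show (n⁻¹ * b * n * b⁻¹) • y = y
          rw [mul_smul, mul_smul, mul_smul, inv_smul_eq_iff.2 (h.fix y b hb'.1).symm, hb b hb', inv_smul_smul]
      rw [show n⁻¹ * b * n = (n⁻¹ * b * n * b⁻¹) * b by group]
      exact (h.E x y).mul_mem (Subgroup.mem_sup_left hmem) (Subgroup.mem_sup_right hb')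
  have := h1 hg
  rwa [Subgroup.mem_comap, MulEquiv.coe_toMonoidHom, MulAut.conj_apply, inv_inv] at this

theorem semireg {x y z : X} (hxy : x ≠ y) (hxz : x ≠ z) (hz : z ∈ h.Ln x y) {n : G} (hn : n ∈ N x)
    (e : n • z = z) : n ∈ h.A x y := by
  rw [← h.A_of_mem_Ln hxy hxz hz]; exact ⟨hn, e⟩

theorem right_mem_Ln {x y : X} (hxy : x ≠ y) : y ∈ h.Ln x y := by
  by_contra hy
  let S : Set X := h.Ln x y
  have key : ∀ u v : X, u ≠ v → h.K u v = h.K x y → (∀ z ∈ S, u ≠ z → h.A u z = h.A u v) →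
      S.ncard ≡ (S ∩ {u}).ncard [MOD p] := by
    intro u v huv hK hA
    obtain ⟨w, hw, hwK, hwv⟩ := h.exists_move_in_K huv
    let R : Subgroup G := N u ⊓ h.K x y
    have h1 := ncard_modEq h.pprime ((h.pgroup u).to_le (inf_le_left : R ≤ N u)) S
      (fun r hr z hz => h.smul_mem_Ln hr.2 hz)
    rwa [show {z | z ∈ S ∧ ∀ r ∈ R, r • z = z} = S ∩ {u} from ?_] at h1
    ext z
    refine ⟨fun ⟨hz, hr⟩ => ⟨hz, ?_⟩, fun ⟨hz, hzu⟩ => ⟨hz, fun r hr => ?_⟩⟩
    · by_contra hzu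
      have hz' : u ≠ z := fun e => hzu (e.symm)
      have : w ∈ h.A u z := ⟨hw, hr w ⟨hw, hK ▸ hwK⟩⟩
      rw [hA z hz hz'] at this
      exact hwv this.2
    · rw [Set.mem_singleton_iff] at hzu; subst hzu; exact h.fix z r hr.1
  have h1 := key x y hxy rfl (fun z hz hxz => h.A_of_mem_Ln hxy hxz hz)
  have h2 := key y x (Ne.symm hxy) (h.K_comm y x) (fun z hz hyz => h.A_eq (Ne.symm hxy) hyz
    fun a ha => ⟨ha.1, h.Ln_fix hz (Subgroup.mem_sup_right ha)⟩)
  rw [Set.inter_eq_right.2 (Set.singleton_subset_iff.2 (h.left_mem_Ln x y)), Set.ncard_singleton] at h1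
  rw [Set.inter_singleton_eq_empty.2 hy, Set.ncard_empty] at h2
  have := h1.symm.trans h2
  exact h.pprime.one_lt.ne' (Nat.dvd_one.1 (Nat.modEq_zero_iff_dvd.1 this))

theorem E_of_mem_left {x y z : X} (hxy : x ≠ y) (hxz : x ≠ z) (hz : z ∈ h.Ln x y) : h.E x z = h.E x y := by
  refine Subgroup.eq_of_le_of_card_ge ?_ (h.card_E hxz hxy).ge
  refine sup_le (by rw [h.A_of_mem_Ln hxy hxz hz]; exact le_sup_left) ?_
  obtain ⟨k, hk, rfl⟩ := hz
  have hxk : k • x ≠ k • y := fun e => hxy (MulAction.injective k e)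
  let T : Subgroup G := (h.A x y).map (MulAut.conj k).toMonoidHom
  have hT : ∀ a ∈ h.A x y, k * a * k⁻¹ ∈ h.E x y := fun a ha => (h.mem_K.1 hk a).1 (Subgroup.mem_sup_left ha)
  have hle : T ≤ h.A (k • x) x := by
    rintro _ ⟨a, ha, rfl⟩
    exact ⟨h.conj k x a ha.1, (h.E_fix (hT a ha)).1⟩
  have hcard : Nat.card (h.A (k • x) x) ≤ Nat.card T := by
    rw [Subgroup.card_map_of_injective (MulAut.conj k).injective]
    exact (h.card_A (Ne.symm hxz) hxy).le
  rw [← Subgroup.eq_of_le_of_card_ge hle hcard]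
  rintro _ ⟨a, ha, rfl⟩
  exact hT a ha

theorem E_of_mem {x y u v : X} (hxy : x ≠ y) (huv : u ≠ v) (hu : u ∈ h.Ln x y) (hv : v ∈ h.Ln x y) :
    h.E u v = h.E x y := by
  obtain ⟨k, hk, rfl⟩ := hu
  have hv' : k⁻¹ • v ∈ h.Ln x y := h.smul_mem_Ln ((h.K x y).inv_mem hk) hv
  have hne : x ≠ k⁻¹ • v := fun e => huv (eq_inv_smul_iff.1 e)
  have h1 := h.E_of_mem_left hxy hne hv'
  ext g
  have h2 := h.E_conj_iff k (x := x) (y := k⁻¹ • v) (n := k⁻¹ * g * k)
  rw [show k * (k⁻¹ * g * k) * k⁻¹ = g by group, smul_inv_smul, h1] at h2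
  rw [h2]
  have h3 := h.mem_K.1 ((h.K x y).inv_mem hk) g
  rw [inv_inv] at h3
  exact h3.symm

theorem Ln_eq {x y u v : X} (hxy : x ≠ y) (huv : u ≠ v) (hu : u ∈ h.Ln x y) (hv : v ∈ h.Ln x y) :
    h.Ln u v = h.Ln x y := by
  have hK : h.K u v = h.K x y := by rw [K, K, h.E_of_mem hxy huv hu hv]
  obtain ⟨k, hk, hku⟩ := hu
  ext z
  constructor
  · rintro ⟨g, hg, rfl⟩
    exact ⟨g * k, (h.K x y).mul_mem (hK ▸ hg) hk, by rw [mul_smul, hku]⟩
  · rintro ⟨g, hg, rfl⟩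
    refine ⟨g * k⁻¹, hK ▸ (h.K x y).mul_mem hg ((h.K x y).inv_mem hk), ?_⟩
    rw [mul_smul, ← hku, inv_smul_smul]

theorem Ln_comm {x y : X} (hxy : x ≠ y) : h.Ln y x = h.Ln x y :=
  h.Ln_eq hxy (Ne.symm hxy) (h.right_mem_Ln hxy) (h.left_mem_Ln x y)

theorem mem_K_of_smul {x y : X} {g : G} (hxy : x ≠ y) (hx : g • x ∈ h.Ln x y) (hy : g • y ∈ h.Ln x y) :
    g ∈ h.K x y := by
  refine h.mem_K.2 fun n => ?_
  rw [← h.E_conj_iff g, h.E_of_mem hxy (fun e => hxy (MulAction.injective g e)) hx hy]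

/-- `N x` preserves every line through `x`. -/
theorem N_le_K {x y : X} (hxy : x ≠ y) : N x ≤ h.K x y := by
  classical
  by_contra hnle
  obtain ⟨v0, hv0, hv0K⟩ := SetLike.not_le_iff_exists.1 hnle
  let W : Subgroup G := N x ⊓ h.K x y
  let Q : Subgroup G := W ⊔ h.A y x
  have hBK : h.A y x ≤ h.K x y := le_trans le_sup_right (h.E_le_K x y)
  have hQK : Q ≤ h.K x y := sup_le inf_le_right hBK
  have hQx : ∀ g ∈ Q, g • x = x := by
    have : Q ≤ MulAction.stabilizer G x :=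
      sup_le (fun g hg => h.fix x g hg.1) (fun g hg => hg.2)
    exact fun g hg => this hg
  have hB : IsPGroup p (h.A y x) := (h.pgroup y).to_le inf_le_left
  obtain ⟨v, hv, hmove, hfx⟩ := exists_fixed (Y := G ⧸ Q) h.pprime (h.pgroup x) hB
    (fun b hb v hv => by have := h.conj b x v hv; rwa [hb.2] at this) ((1 : G) : G ⧸ Q)
    (fun b hb => by
      show ((b * 1 : G) : G ⧸ Q) = ((1 : G) : G ⧸ Q)
      refine QuotientGroup.eq.2 ?_
      simpa using Q.inv_mem (Subgroup.mem_sup_right hb : b ∈ Q))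
    ⟨v0, hv0, fun e => hv0K (by
      change ((v0 * 1 : G) : G ⧸ Q) = ((1 : G) : G ⧸ Q) at e
      have h1 := QuotientGroup.eq.1 e
      simp only [mul_one] at h1
      simpa using hQK h1)⟩
  have hvQ : v ∉ Q := fun e => hmove (by
    show ((v * 1 : G) : G ⧸ Q) = ((1 : G) : G ⧸ Q)
    refine QuotientGroup.eq.2 ?_
    simpa using Q.inv_mem e)
  have hconj : ∀ b ∈ h.A y x, v⁻¹ * b * v ∈ Q := fun b hb => by
    have e := hfx b hb
    change ((b * (v * 1) : G) : G ⧸ Q) = ((v * 1 : G) : G ⧸ Q) at e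
    have h1 := Q.inv_mem (QuotientGroup.eq.1 e)
    simpa [mul_assoc] using h1
  have hn : v⁻¹ ∈ N x := (N x).inv_mem hv
  have hnA : v⁻¹ ∉ h.A x y := fun e => hvQ (Subgroup.mem_sup_left ⟨hv, by
    simpa using (h.K x y).inv_mem (h.E_le_K x y (Subgroup.mem_sup_left e))⟩)
  have hzy : v⁻¹ • y ≠ y := fun e => hnA ⟨hn, e⟩
  obtain ⟨b, hb, hby⟩ : ∃ b ∈ h.A y x, (v⁻¹ * b * v) • y ≠ y := by
    by_contra hc
    push Not at hc
    refine hvQ (Subgroup.mem_sup_left ⟨hv, ?_⟩)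
    suffices v⁻¹ ∈ h.K x y by simpa using (h.K x y).inv_mem this
    refine Subgroup.mem_normalizer_fintype (S := (h.E x y : Set G)) ?_
    intro g hg
    have h1 : h.E x y ≤ (h.E x y).comap (MulAut.conj v⁻¹).toMonoidHom := by
      refine sup_le (fun a ha => ?_) (fun b hb => ?_)
      · show v⁻¹ * a * v⁻¹⁻¹ ∈ h.E x y
        rw [inv_inv, mul_assoc, h.comm x a ha.1 v hv, inv_mul_cancel_left]
        exact Subgroup.mem_sup_left ha
      · show v⁻¹ * b * v⁻¹⁻¹ ∈ h.E x y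
        rw [inv_inv]
        have h2 := h.conj b x v hv
        rw [hb.2] at h2
        have hw : v⁻¹ * b * v * b⁻¹ ∈ h.A x y := by
          refine ⟨?_, ?_⟩
          · rw [show v⁻¹ * b * v * b⁻¹ = v⁻¹ * (b * v * b⁻¹) by group]
            exact (N x).mul_mem hn h2
          · show (v⁻¹ * b * v * b⁻¹) • y = y
            rw [mul_smul, inv_smul_eq_iff.2 (h.fix y b hb.1).symm]
            exact hc b hb
        rw [show v⁻¹ * b * v = (v⁻¹ * b * v * b⁻¹) * b by group]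
        exact (h.E x y).mul_mem (Subgroup.mem_sup_left hw) (Subgroup.mem_sup_right hb)
    have := h1 hg
    rwa [Subgroup.mem_comap, MulEquiv.coe_toMonoidHom, MulAut.conj_apply] at this
  let z := v⁻¹ • y
  let b' := v⁻¹ * b * v
  have hb'Q : b' ∈ Q := hconj b hb
  have hb'x : b' • x = x := hQx _ hb'Q
  have hb'N : b' ∈ N z := by
    have := h.conj v⁻¹ y b hb.1
    rwa [inv_inv] at this
  have hxz : z ≠ x := fun e => hxy (by
    rw [← smul_inv_smul v y, show v⁻¹ • y = x from e, h.fix x v hv])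
  have hb'y : b' • y ∈ h.Ln x y := h.smul_mem_Ln (hQK hb'Q) (h.right_mem_Ln hxy)
  have honly : ∀ u ∈ h.Ln x y, b' • u = u → u = x := by
    intro u hu e
    by_contra hux
    have hwB : b' * b⁻¹ ∈ N x := by
      have h2 := h.conj b x v hv
      rw [hb.2] at h2
      rw [show b' * b⁻¹ = v⁻¹ * (b * v * b⁻¹) by simp only [b']; group]
      exact (N x).mul_mem hn h2
    have h3 : (b' * b⁻¹) • u = u := by
      rw [mul_smul, h.Ln_fix hu ((h.E x y).inv_mem (Subgroup.mem_sup_right hb)), e]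
    refine hby ?_
    have h4 := (h.semireg hxy (Ne.symm hux) hu hwB h3).2
    change (b' * b⁻¹) • y = y at h4
    rwa [mul_smul, inv_smul_eq_iff.2 (h.fix y b hb.1).symm] at h4
  have hle : h.A z y ≤ h.A z x := by
    intro a ha
    refine ⟨ha.1, honly _ ?_ ?_⟩
    · refine h.smul_mem_Ln ?_ (h.left_mem_Ln x y)
      have h1 : a • b' • y = b' • y := by
        rw [← mul_smul, h.comm z a ha.1 b' hb'N, mul_smul, ha.2]
      have hne : y ≠ b' • y := fun e => hby e.symm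
      have hy' := h.right_mem_Ln hxy
      have := h.mem_K_of_smul (g := a) hne (by rw [ha.2]; exact h.left_mem_Ln _ _)
        (by rw [h1]; exact h.right_mem_Ln hne)
      rwa [K, h.E_of_mem hxy hne hy' hb'y] at this
    · rw [← mul_smul, h.comm z b' hb'N a ha.1, mul_smul, hb'x]
  have heq := h.A_eq hzy hxz hle
  have : b' ∈ h.A z x := ⟨hb'N, hb'x⟩
  rw [heq] at this
  exact hby this.2

theorem smul_mem_Ln' {x y z : X} (hxy : x ≠ y) (hz : z ∈ h.Ln x y) {n : G} (hn : n ∈ N x) :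
    n • z ∈ h.Ln x y := h.smul_mem_Ln (h.N_le_K hxy hn) hz

theorem eq_of_mem_two {x y u v : X} (hxy : x ≠ y) (huv : u ≠ v) {w : X} (hw : w ∈ h.Ln x y) (hw' : w ∈ h.Ln u v)
    (hne : h.Ln x y ≠ h.Ln u v) {w' : X} (h1 : w' ∈ h.Ln x y) (h2 : w' ∈ h.Ln u v) : w' = w := by
  by_contra e
  exact hne ((h.Ln_eq hxy e h1 hw).symm.trans (h.Ln_eq huv e h2 hw'))

/-- Three points on a line. -/
theorem exists_third {x y : X} (hxy : x ≠ y) : ∃ z ∈ h.Ln x y, z ≠ x ∧ z ≠ y := by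
  obtain ⟨n, hn, hny⟩ := h.exists_move hxy
  exact ⟨n • y, h.smul_mem_Ln' hxy (h.right_mem_Ln hxy) hn,
    fun e => hxy (MulAction.injective n ((h.fix x n hn).trans e.symm)), hny⟩

theorem exists_not_mem_Ln {x y : X} (hxy : x ≠ y) : ∃ z, z ∉ h.Ln x y := by
  by_contra hc
  push Not at hc
  obtain ⟨a, ha, ha1, hay⟩ := h.nsr x y hxy
  exact ha1 (h.faithful a fun z => h.Ln_fix (hc z) (Subgroup.mem_sup_left ⟨ha, hay⟩))

/-- An element of `N x` fixing two points fixes their line pointwise. -/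
theorem fix_Ln {x u v : X} (huv : u ≠ v) {n : G} (hn : n ∈ N x) (hu : n • u = u) (hv : n • v = v) {w : X}
    (hw : w ∈ h.Ln u v) : n • w = w := by
  by_cases hx : x ∈ h.Ln u v
  · obtain ⟨u', hxu', hu', hnu'⟩ : ∃ u', x ≠ u' ∧ u' ∈ h.Ln u v ∧ n • u' = u' := by
      by_cases hxu : x = u
      · exact ⟨v, hxu ▸ huv, h.right_mem_Ln huv, hv⟩
      · exact ⟨u, hxu, h.left_mem_Ln u v, hu⟩
    rw [← h.Ln_eq huv hxu' hx hu'] at hw
    exact h.Ln_fix hw (Subgroup.mem_sup_left ⟨hn, hnu'⟩)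
  · have hxw : x ≠ w := fun e => hx (e ▸ hw)
    refine h.eq_of_mem_two huv hxw hw (h.right_mem_Ln hxw) (fun e => hx (e ▸ h.left_mem_Ln x w)) ?_
      (h.smul_mem_Ln' hxw (h.right_mem_Ln hxw) hn)
    exact h.smul_mem_Ln (h.mem_K_of_smul huv (by rw [hu]; exact h.left_mem_Ln _ _)
      (by rw [hv]; exact h.right_mem_Ln huv)) hw

/-- Different points have disjoint subgroups. -/
theorem N_inf {x y : X} (hxy : x ≠ y) {c : G} (hcx : c ∈ N x) (hcy : c ∈ N y) : c = 1 := by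
  have hout : ∀ u, u ∉ h.Ln x y → c • u = u := by
    intro u hu
    have hxu : x ≠ u := fun e => hu (e ▸ h.left_mem_Ln x y)
    have hyu : y ≠ u := fun e => hu (e ▸ h.right_mem_Ln hxy)
    refine h.eq_of_mem_two hxu hyu (h.right_mem_Ln hxu) (h.right_mem_Ln hyu) ?_
      (h.smul_mem_Ln' hxu (h.right_mem_Ln hxu) hcx) (h.smul_mem_Ln' hyu (h.right_mem_Ln hyu) hcy)
    intro e
    exact hu (h.Ln_eq hxu hxy (h.left_mem_Ln x u) (e ▸ h.left_mem_Ln y u) ▸ h.right_mem_Ln hxu)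
  refine h.faithful c fun u => ?_
  by_cases hu : u ∈ h.Ln x y
  · obtain ⟨w, hw⟩ := h.exists_not_mem_Ln hxy
    have huw : u ≠ w := fun e => hw (e ▸ hu)
    obtain ⟨w', hw', hw'u, hw'w⟩ := h.exists_third huw
    have hw'L : w' ∉ h.Ln x y := fun e =>
      hw (h.Ln_eq hxy (Ne.symm hw'u) hu e ▸ h.Ln_eq huw (Ne.symm hw'u) (h.left_mem_Ln _ _) hw' ▸ h.right_mem_Ln huw)
    exact h.fix_Ln (Ne.symm hw'w) hcx (hout w hw) (hout w' hw'L)
      (h.Ln_eq huw (Ne.symm hw'w) (h.right_mem_Ln huw) hw' ▸ h.left_mem_Ln u w)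
  · exact hout u hu

theorem centre_unique {x y : X} {g : G} (hg : g ≠ 1) (hx : g ∈ N x) (hy : g ∈ N y) : x = y := by
  by_contra e
  exact hg (h.N_inf e hx hy)

theorem A_comm {x y : X} (hxy : x ≠ y) {a b : G} (ha : a ∈ h.A x y) (hb : b ∈ h.A y x) : a * b = b * a := by
  have h1 : a * b * a⁻¹ * b⁻¹ ∈ N x := by
    have := h.conj b x a⁻¹ ((N x).inv_mem ha.1)
    rw [hb.2] at this
    rw [show a * b * a⁻¹ * b⁻¹ = a * (b * a⁻¹ * b⁻¹) by group]
    exact (N x).mul_mem ha.1 this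
  have h2 : a * b * a⁻¹ * b⁻¹ ∈ N y := by
    have := h.conj a y b hb.1
    rw [ha.2] at this
    exact (N y).mul_mem this ((N y).inv_mem hb.1)
  have h3 := h.N_inf hxy h1 h2
  calc a * b = (a * b * a⁻¹ * b⁻¹) * (b * a) := by group
    _ = b * a := by rw [h3, one_mul]

end Fam

end Cfsg.Agent.ONanPSL
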