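import Cfsg.Agent.ONanPSL.Axes
import Cfsg.Agent.ItoDesign.Main
import Cfsg.Agent.Components.Basic
import Cfsg.Prelude.Def_Local
import Cfsg.Prelude.Def_Solvable

/-!
O'Nan's theorem: a doubly transitive group with an abelian normal subgroup of a point stabilizer that is not
semiregular on the other points has generalized Fitting subgroup a projective special linear group.
-/

set_option autoImplicit false
set_option linter.all false

open scoped Pointwise

namespace Cfsg.Agent.ONanPSL

namespace Fam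

variable {G X : Type*} [Group G] [MulAction G X] {N : X → Subgroup G} {p : ℕ}

variable (h : Fam G X N p) [Finite G] [Finite X]
include h

theorem ncard_smul (g : G) (H : Set X) : (g • H).ncard = H.ncard :=
  Set.ncard_image_of_injective H (MulAction.injective g)

theorem fx_conj (g s : G) : Fx X (g * s * g⁻¹) = g • Fx X s := by
  ext z
  rw [Set.mem_smul_set_iff_inv_smul_mem]
  show (g * s * g⁻¹) • z = z ↔ s • g⁻¹ • z = g⁻¹ • z
  rw [mul_smul, mul_smul, ← eq_inv_smul_iff]

theorem ax_conj (g : G) {H : Set X} (hH : h.Ax H) : h.Ax (g • H) := by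
  obtain ⟨z, s, hs, hs1, rfl⟩ := hH.2.1
  rw [← h.fx_conj g s]
  exact h.ax_Fx (h.conj g z s hs) (fun e => hs1 (conj_eq_one_iff.1 e))

/-- Each axis has as many points as there are lines through a point. -/
theorem card_axis {H : Set X} (hH : h.Ax H) : Nat.card X = h.q * H.ncard + 1 := by
  classical
  haveI := Fintype.ofFinite X
  haveI := Fintype.ofFinite G
  obtain ⟨t, ht⟩ := h.ax_ne_univ hH
  let Hf : Finset X := H.toFinite.toFinset
  let Sf : X → Finset G := fun z => Finset.univ.filter fun s => s ∈ h.S z H ∧ s ≠ 1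
  have hSf : ∀ z ∈ Hf, (Sf z).card = h.q - 1 := by
    intro z hz
    rw [← Set.ncard_coe_finset, show ((Sf z : Finset G) : Set G) = (h.S z H : Set G) \ {1} by ext s; simp [Sf],
      Set.ncard_diff_singleton_of_mem (h.S z H).one_mem, ← Nat.card_coe_set_eq,
      ← h.card_S hH ((Set.Finite.mem_toFinset _).1 hz)]
    rfl
  have hmain : (Hf.sigma Sf).card = (Finset.univ.filter fun z => z ∉ H ∧ z ≠ t).card := by
    refine Finset.card_bij (fun q _ => q.2 • t) ?_ ?_ ?_
    · rintro ⟨z, s⟩ hq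
      simp only [Finset.mem_sigma, Sf, Finset.mem_filter, Finset.mem_univ, true_and, Hf,
        Set.Finite.mem_toFinset] at hq ⊢
      refine ⟨fun e => ht ?_, h.ax_exact hH hq.2.1 hq.2.2 ht⟩
      have := (h.mem_S.1 hq.2.1).2 _ e
      rwa [MulAction.injective s this] at e
    · rintro ⟨z, s⟩ hq ⟨z', s'⟩ hq' e
      simp only [Finset.mem_sigma, Sf, Finset.mem_filter, Finset.mem_univ, true_and, Hf,
        Set.Finite.mem_toFinset] at hq hq'
      change s • t = s' • t at e
      have hne := h.ax_exact hH hq.2.1 hq.2.2 ht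
      have hzt : z ≠ t := fun e' => ht (e' ▸ hq.1)
      have hz't : z' ≠ t := fun e' => ht (e' ▸ hq'.1)
      have h1 : h.Lp t (s • t) = h.Lp z t :=
        h.Lp_eq hzt (Ne.symm hne) (h.right_mem_Lp z t) (Or.inr ⟨s, (h.mem_S.1 hq.2.1).1, rfl⟩)
      have h1' : h.Lp t (s • t) = h.Lp z' t :=
        h.Lp_eq hz't (Ne.symm hne) (h.right_mem_Lp z' t) (e ▸ Or.inr ⟨s', (h.mem_S.1 hq'.2.1).1, rfl⟩)
      have hzz : z = z' := by
        by_contra hzz
        have hl : h.Lp z z' = h.Lp z t :=
          h.Lp_eq hzt hzz (h.left_mem_Lp z t) (h1.symm.trans h1' ▸ h.left_mem_Lp z' t)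
        exact ht (h.ax_Lp hH hzz hq.1 hq'.1 (hl ▸ h.right_mem_Lp z t))
      subst hzz
      have hss : s = s' := by
        by_contra hss
        refine h.ax_exact hH ((h.S z H).mul_mem ((h.S z H).inv_mem hq'.2.1) hq.2.1)
          (fun e' => hss (inv_mul_eq_one.1 e').symm) ht ?_
        rw [mul_smul, e, inv_smul_smul]
      rw [hss]
    · intro u hu
      simp only [Finset.mem_filter, Finset.mem_univ, true_and] at hu
      obtain ⟨z, hz, hzH⟩ := h.ax_meets hH (Ne.symm hu.2)
      have hzt : z ≠ t := fun e' => ht (e' ▸ hzH)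
      have hl : h.Lp z t = h.Lp t u := h.Lp_eq (Ne.symm hu.2) hzt hz (h.left_mem_Lp t u)
      obtain hu' | ⟨n, hn, e⟩ := (hl ▸ h.right_mem_Lp t u : u ∈ h.Lp z t)
      · exact absurd (hu' ▸ hzH) hu.1
      obtain ⟨s, hs, es⟩ := h.exists_S_smul hH hzH ht hn
      refine ⟨⟨z, s⟩, ?_, es.trans e⟩
      simp only [Finset.mem_sigma, Sf, Finset.mem_filter, Finset.mem_univ, true_and, Hf, Set.Finite.mem_toFinset]
      exact ⟨hzH, hs, fun e' => hu.2 (by rw [← e, ← es, e', one_smul])⟩
  rw [Finset.card_sigma, Finset.sum_congr rfl hSf, Finset.sum_const, smul_eq_mul] at hmain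
  have h2 : (Finset.univ.filter fun z => z ∉ H ∧ z ≠ t).card = Nat.card X - H.ncard - 1 := by
    rw [← Set.ncard_coe_finset,
      show ((Finset.univ.filter fun z => z ∉ H ∧ z ≠ t : Finset X) : Set X) = Hᶜ \ {t} by ext z; simp,
      Set.ncard_diff_singleton_of_mem (show t ∈ Hᶜ from ht), Set.ncard_compl]
  rw [h2, ← Set.ncard_eq_toFinset_card] at hmain
  have h3 : H.ncard < Nat.card X := by
    rw [← Set.ncard_univ]
    exact Set.ncard_lt_ncard ⟨Set.subset_univ _, fun e => ht (e (Set.mem_univ t))⟩ (Set.toFinite _)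
  have hq := h.two_le_q
  obtain ⟨q', hq'⟩ : ∃ q', h.q = q' + 1 := ⟨h.q - 1, by omega⟩
  rw [hq', add_tsub_cancel_right, mul_comm] at hmain
  rw [hq', add_mul, one_mul]
  omega

theorem axis_size {H H' : Set X} (hH : h.Ax H) (hH' : h.Ax H') : H.ncard = H'.ncard := by
  have h1 := h.card_axis hH
  rw [h.card_axis hH'] at h1
  exact (Nat.eq_of_mul_eq_mul_left (by have := h.two_le_q; omega) (Nat.add_right_cancel h1)).symm

/-- The number of axes through a point is the number of points of an axis. -/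
theorem card_through {H0 : Set X} (hH0 : h.Ax H0) (x : X) :
    {H | h.Ax H ∧ x ∈ H}.ncard = H0.ncard := by
  classical
  haveI := Fintype.ofFinite X
  haveI := Fintype.ofFinite G
  haveI : Finite (Set X) := inferInstance
  haveI := Fintype.ofFinite (Set X)
  obtain ⟨t, ht⟩ := h.ax_ne_univ hH0
  obtain ⟨y₀, hxy₀⟩ : ∃ y, x ≠ y := by
    by_contra hc
    push Not at hc
    obtain ⟨a, -, b, -, hab⟩ := hH0.1
    exact hab ((hc a).symm.trans (hc b))
  let Nf : Finset G := Finset.univ.filter fun n => n ∈ N x ∧ n ≠ 1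
  let T : Finset (Set X) := Finset.univ.filter fun H => h.Ax H ∧ x ∈ H
  have hNf : Nf.card = Nat.card (N x) - 1 := by
    rw [← Set.ncard_coe_finset, show ((Nf : Finset G) : Set G) = (N x : Set G) \ {1} by ext s; simp [Nf],
      Set.ncard_diff_singleton_of_mem (N x).one_mem, ← Nat.card_coe_set_eq]
    rfl
  -- by axes
  have hpart : Nf.card = T.card * (h.q - 1) := by
    rw [Finset.card_eq_sum_card_fiberwise (f := fun n => Fx X n) (t := T) fun n hn => by
      simp only [Nf, Finset.coe_filter, Finset.mem_univ, true_and, Set.mem_setOf_eq, T] at hn ⊢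
      exact ⟨h.ax_Fx hn.1 hn.2, h.fix x n hn.1⟩]
    rw [Finset.sum_congr rfl (g := fun _ => h.q - 1) ?_, Finset.sum_const, smul_eq_mul]
    intro H hH
    simp only [T, Finset.mem_filter, Finset.mem_univ, true_and] at hH
    rw [← Set.ncard_coe_finset, show ((Nf.filter fun n => Fx X n = H : Finset G) : Set G) = (h.S x H : Set G) \ {1} from ?_,
      Set.ncard_diff_singleton_of_mem (h.S x H).one_mem, ← Nat.card_coe_set_eq, ← h.card_S hH.1 hH.2]
    · rfl
    ext n
    simp only [Nf, Finset.coe_filter, Finset.mem_filter, Finset.mem_univ, true_and, Set.mem_setOf_eq, Set.mem_diff,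
      SetLike.mem_coe, Set.mem_singleton_iff, h.mem_S]
    constructor
    · rintro ⟨⟨hn, hn1⟩, e⟩
      exact ⟨⟨hn, fun z hz => (Set.ext_iff.1 e z).2 hz⟩, hn1⟩
    · rintro ⟨⟨hn, hnH⟩, hn1⟩
      exact ⟨⟨hn, hn1⟩, hH.1.2.2 x n hn hn1 hnH⟩
  -- by pairs
  have hinc : Nf.card * (H0.ncard - 1) = (Nat.card X - 1) * (Nat.card (h.A x y₀) - 1) := by
    have h1 := Finset.sum_card_bipartiteAbove_eq_sum_card_bipartiteBelow (fun (n : G) (z : X) => n • z = z)
      (s := Nf) (t := Finset.univ.erase x)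
    simp only [Finset.bipartiteAbove, Finset.bipartiteBelow] at h1
    rw [Finset.sum_congr rfl (g := fun _ => H0.ncard - 1) ?_, Finset.sum_congr rfl (s₁ := Finset.univ.erase x)
      (g := fun _ => Nat.card (h.A x y₀) - 1) ?_, Finset.sum_const, Finset.sum_const, smul_eq_mul, smul_eq_mul,
      Finset.card_erase_of_mem (Finset.mem_univ x), Finset.card_univ, ← Nat.card_eq_fintype_card] at h1
    · exact h1
    · intro z hz
      have hxz : x ≠ z := (Finset.ne_of_mem_erase hz).symm
      rw [← Set.ncard_coe_finset,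
        show ((Nf.filter fun n => n • z = z : Finset G) : Set G) = (h.A x z : Set G) \ {1} by
          ext n; simp [Nf, h.mem_A]; tauto,
        Set.ncard_diff_singleton_of_mem (h.A x z).one_mem, ← Nat.card_coe_set_eq, h.card_A hxy₀ hxz]
      rfl
    · intro n hn
      simp only [Nf, Finset.mem_filter, Finset.mem_univ, true_and] at hn
      rw [← Set.ncard_coe_finset,
        show (((Finset.univ.erase x).filter fun z => n • z = z : Finset X) : Set X) = Fx X n \ {x} by
          ext z; simp [Fx, and_comm],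
        Set.ncard_diff_singleton_of_mem (show x ∈ Fx X n from h.fix x n hn.1), h.axis_size (h.ax_Fx hn.1 hn.2) hH0]
  rw [show {H | h.Ax H ∧ x ∈ H}.ncard = T.card by rw [← Set.ncard_coe_finset]; simp [T]]
  rw [hNf, h.card_N_eq hxy₀] at hpart hinc
  rw [h.card_axis hH0, add_tsub_cancel_right] at hinc
  have hq := h.two_le_q
  have hA : 0 < Nat.card (h.A x y₀) := Nat.card_pos
  have hh : 0 < H0.ncard := (Set.ncard_pos (Set.toFinite _)).2 hH0.1.nonempty
  obtain ⟨q', hq'⟩ : ∃ q', h.q = q' + 1 := ⟨h.q - 1, by omega⟩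
  obtain ⟨a', ha'⟩ : ∃ a', Nat.card (h.A x y₀) = a' + 1 := ⟨Nat.card (h.A x y₀) - 1, by omega⟩
  obtain ⟨h', hh'⟩ : ∃ h', H0.ncard = h' + 1 := ⟨H0.ncard - 1, by omega⟩
  obtain ⟨w, hw⟩ : ∃ w, h.q * Nat.card (h.A x y₀) - 1 = w := ⟨_, rfl⟩
  have hpos : 0 < h.q * Nat.card (h.A x y₀) := Nat.mul_pos (by omega) hA
  have hw' : w + 1 = h.q * Nat.card (h.A x y₀) := by omega
  rw [hw, hq', add_tsub_cancel_right] at hpart
  rw [hw, hq', hh', ha', add_tsub_cancel_right, add_tsub_cancel_right] at hinc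
  rw [hq', ha'] at hw'
  rw [hh']
  have key : w = q' * (h' + 1) := by nlinarith
  rw [key, mul_comm q'] at hpart
  exact (Nat.eq_of_mul_eq_mul_right (by omega) hpart).symm

/-- There are exactly as many axes as points, all conjugate. -/
theorem orbit_axis {H0 : Set X} (hH0 : h.Ax H0) :
    (MulAction.orbit G H0).ncard = Nat.card X := by
  classical
  haveI := Fintype.ofFinite X
  haveI : Finite (Set X) := inferInstance
  haveI := Fintype.ofFinite (Set X)
  let O : Set (Set X) := MulAction.orbit G H0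
  have hO : ∀ H ∈ O, h.Ax H := by rintro H ⟨g, rfl⟩; exact h.ax_conj g hH0
  have hle : O.ncard ≤ Nat.card X := by
    let T : Finset (Set X) := Finset.univ.filter fun H => h.Ax H
    have h1 := Finset.sum_card_bipartiteAbove_eq_sum_card_bipartiteBelow (fun (z : X) (H : Set X) => z ∈ H)
      (s := Finset.univ) (t := T)
    simp only [Finset.bipartiteAbove, Finset.bipartiteBelow] at h1
    rw [Finset.sum_congr rfl (g := fun _ => H0.ncard) ?_, Finset.sum_congr rfl (s₁ := T) (g := fun _ => H0.ncard) ?_,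
      Finset.sum_const, Finset.sum_const, smul_eq_mul, smul_eq_mul, Finset.card_univ,
      ← Nat.card_eq_fintype_card] at h1
    · rw [Nat.eq_of_mul_eq_mul_right ((Set.ncard_pos (Set.toFinite _)).2 hH0.1.nonempty) h1, ← Set.ncard_coe_finset]
      exact Set.ncard_le_ncard (fun H hH => by simp [T, hO H hH]) (Set.toFinite _)
    · intro H hH
      simp only [T, Finset.mem_filter, Finset.mem_univ, true_and] at hH
      rw [h.axis_size hH0 hH, ← Set.ncard_coe_finset]
      congr 1
      ext z; simp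
    · intro z _
      rw [← h.card_through hH0 z, ← Set.ncard_coe_finset]
      congr 1
      ext H; simp [T]
  refine le_antisymm hle ?_
  -- Fisher
  let I : ↥O → X → Prop := fun H z => z ∈ (H : Set X)
  have inv : ∀ (g : G) (z z' : X), {H : ↥O | I H z ∧ I H z'}.ncard ≤ {H : ↥O | I H (g • z) ∧ I H (g • z')}.ncard := by
    intro g z z'
    refine Set.ncard_le_ncard_of_injOn (fun H => (⟨g • (H : Set X), by
        obtain ⟨a, ha⟩ := H.2
        exact ⟨g * a, by show (g * a) • H0 = g • (H : Set X); rw [mul_smul]; exact congrArg (g • ·) ha⟩⟩ : ↥O))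
      (fun H hH => ⟨Set.smul_mem_smul_set hH.1, Set.smul_mem_smul_set hH.2⟩) ?_ (Set.toFinite _)
    intro H _ H' _ e
    exact Subtype.ext (smul_left_cancel g (congrArg Subtype.val e))
  obtain ⟨x0, hx0, y', hy', hxy'⟩ := hH0.1
  obtain ⟨t, ht⟩ := h.ax_ne_univ hH0
  have hxt : x0 ≠ t := fun e => ht (e ▸ hx0)
  let k : ℕ := {H : ↥O | I H x0}.ncard
  let l : ℕ := {H : ↥O | I H x0 ∧ I H t}.ncard
  have heq : ∀ (g : G) (z z' : X), {H : ↥O | I H z ∧ I H z'}.ncard = {H : ↥O | I H (g • z) ∧ I H (g • z')}.ncard :=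
    fun g z z' => le_antisymm (inv g z z') (by simpa using inv g⁻¹ (g • z) (g • z'))
  have hpts : ∀ z, {H : ↥O | I H z}.ncard = k := by
    intro z
    by_cases hz : z = x0
    · rw [hz]
    obtain ⟨g, hg, -⟩ := h.two_trans x0 z z x0 (Ne.symm hz) hz
    have := heq g x0 x0
    simp only [and_self, hg] at this
    exact this.symm
  have hmeet : ∀ z z', z ≠ z' → {H : ↥O | I H z ∧ I H z'}.ncard = l := by
    intro z z' hzz
    obtain ⟨g, hg, hg'⟩ := h.two_trans x0 t z z' hxt hzz
    rw [← hg, ← hg', ← heq]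
  have hlk : l < k := by
    refine Set.ncard_lt_ncard ⟨fun H hH => hH.1, fun e => ?_⟩ (Set.toFinite _)
    exact ht (e (show (⟨H0, MulAction.mem_orbit_self H0⟩ : ↥O) ∈ {H : ↥O | I H x0} from hx0)).2
  haveI := Fintype.ofFinite ↥O
  let M : (X → ℚ) →ₗ[ℚ] (↥O → ℚ) :=
    { toFun := fun f H => ∑ z, (if I H z then f z else 0)
      map_add' := fun f f' => by
        funext H
        simp only [Pi.add_apply, ← Finset.sum_add_distrib]
        exact Finset.sum_congr rfl fun z _ => by split_ifs <;> simp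
      map_smul' := fun c f => by
        funext H
        simp [Finset.mul_sum] }
  have hM : Function.Injective M := (injective_iff_map_eq_zero M).2 fun f hf =>
    ItoDesign.sum_inj (fun H z => I H z) k l (by omega) (by omega) hpts hmeet f fun H => congrFun hf H
  have := LinearMap.finrank_le_finrank_of_injective hM
  rwa [Module.finrank_pi, Module.finrank_pi, ← Nat.card_eq_fintype_card, ← Nat.card_eq_fintype_card,
    Nat.card_coe_set_eq] at this

theorem exists_psl [FaithfulSMul G X] (h2 : MulAction.IsMultiplyPretransitive G X 2) (hX : ∃ x y : X, x ≠ y) :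
    ∃ (m : ℕ) (F : Type) (_ : Field F) (_ : Fintype F), 2 ≤ m ∧
      Nat.card X = (Fintype.card F ^ (m + 1) - 1) / (Fintype.card F - 1) ∧
      ∃ L : Subgroup G, L.Normal ∧ Nonempty (L ≃* Matrix.ProjectiveSpecialLinearGroup (Fin (m + 1)) F) ∧
        Subgroup.centralizer (L : Set G) = ⊥ := by
  obtain ⟨x, y, hxy⟩ := hX
  obtain ⟨H0, hH0, hx0, hy0⟩ := h.exists_ax hxy
  let St : Subgroup G := MulAction.stabilizer G H0
  have hSt : ∀ g, g ∈ St ↔ g • H0 = H0 := fun g => Iff.rfl
  have hfixH : ∀ {z : X} {s : G}, s ∈ h.S z H0 → s ∈ St := by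
    intro z s hs
    rw [hSt]
    refine (Set.eq_of_subset_of_ncard_le ?_ ?_ (Set.toFinite _)).symm
    · exact fun u hu => ⟨u, hu, (h.mem_S.1 hs).2 u hu⟩
    · rw [h.ncard_smul]
  refine ItoDesign.ito h2 St ?_ ?_ ?_ ?_
  · rw [MulAction.index_stabilizer, h.orbit_axis hH0]
  · intro htr
    obtain ⟨t, ht⟩ := h.ax_ne_univ hH0
    obtain ⟨g, hg⟩ := htr.exists_smul_eq x t
    refine ht ?_
    rw [← hg, ← (hSt g).1 g.2]
    exact ⟨x, hx0, rfl⟩
  · intro z
    by_cases hz : z ∈ H0
    · obtain ⟨u, hu, hzu⟩ := h.exists_other hH0 (x := z)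
      obtain ⟨n, hn, hnz⟩ := h.exists_move (Ne.symm hzu)
      refine ⟨⟨n, ?_⟩, hnz⟩
      rw [hSt]
      refine Set.eq_of_subset_of_ncard_le ?_ ?_ (Set.toFinite _)
      · rintro _ ⟨w, hw, rfl⟩; exact h.ax_smul hH0 hu hw hn
      · rw [h.ncard_smul]
    · obtain ⟨a, ha, ha1⟩ := h.exists_S_ne_one hH0 hx0
      exact ⟨⟨a, hfixH ha⟩, h.ax_exact hH0 ha ha1 hz⟩
  · obtain ⟨a, ha, ha1⟩ := h.exists_S_ne_one hH0 hx0
    refine ⟨x, ⟨a, hfixH ha⟩, fun e => ha1 (congrArg Subtype.val e), ?_⟩
    rintro _ ⟨g, rfl⟩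
    refine (h.mem_S.1 ha).2 _ ?_
    rw [← (hSt g).1 g.2]
    exact ⟨x, hx0, rfl⟩

end Fam

/-- An abelian subgroup, normal in a point stabilizer and not semiregular on the other points, yields a family. -/
theorem exists_fam {G X : Type*} [Group G] [Finite G] [Finite X] [MulAction G X] [FaithfulSMul G X]
    (h2 : MulAction.IsMultiplyPretransitive G X 2) (x : X) (N : Subgroup G) (hNle : N ≤ MulAction.stabilizer G x)
    (hNnormal : ∀ g ∈ MulAction.stabilizer G x, ∀ n ∈ N, g * n * g⁻¹ ∈ N)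
    (hNab : ∀ a ∈ N, ∀ b ∈ N, a * b = b * a)
    (hnsr : ∃ n ∈ N, n ≠ 1 ∧ ∃ y : X, y ≠ x ∧ n • y = y) :
    ∃ (M : X → Subgroup G) (p : ℕ), Fam G X M p := by
  classical
  obtain ⟨n, hn, hn1, y, hyx, hny⟩ := hnsr
  have h2' : ∀ a b c d : X, a ≠ b → c ≠ d → ∃ g : G, g • a = c ∧ g • b = d :=
    fun a b c d h1 h3 => MulAction.is_two_pretransitive_iff.1 h2 h1 h3
  obtain ⟨p, hp, hpn⟩ := Nat.exists_prime_and_dvd (fun e => hn1 (orderOf_eq_one_iff.1 e) : orderOf n ≠ 1)
  haveI : Fact p.Prime := ⟨hp⟩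
  let a : G := n ^ (orderOf n / p)
  have ha : orderOf a = p := orderOf_pow_orderOf_div (orderOf_pos n).ne' hpn
  let P : Subgroup G :=
    { carrier := {g | g ∈ N ∧ g ^ p = 1}
      one_mem' := ⟨N.one_mem, one_pow p⟩
      mul_mem' := fun {u v} hu hv => ⟨N.mul_mem hu.1 hv.1, by
        rw [(show Commute u v from hNab u hu.1 v hv.1).mul_pow, hu.2, hv.2, one_mul]⟩
      inv_mem' := fun {u} hu => ⟨N.inv_mem hu.1, by rw [inv_pow, hu.2, inv_one]⟩ }
  have hP : ∀ g ∈ MulAction.stabilizer G x, ∀ u ∈ P, g * u * g⁻¹ ∈ P := fun g hg u hu =>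
    ⟨hNnormal g hg u hu.1, by rw [conj_pow, hu.2, mul_one, mul_inv_cancel]⟩
  have htr : ∀ z, ∃ g : G, g • x = z := fun z => by
    by_cases hz : z = x
    · exact ⟨1, by rw [one_smul, hz]⟩
    · obtain ⟨g, hg, -⟩ := h2' x y z x (Ne.symm hyx) hz
      exact ⟨g, hg⟩
  choose c hc using htr
  let M : X → Subgroup G := fun z => P.map (MulAut.conj (c z)).toMonoidHom
  have hMmem : ∀ (g : G) (u : G), u ∈ P → g * u * g⁻¹ ∈ M (g • x) := by
    intro g u hu
    refine ⟨(c (g • x))⁻¹ * g * u * ((c (g • x))⁻¹ * g)⁻¹, hP _ ?_ u hu, ?_⟩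
    · show ((c (g • x))⁻¹ * g) • x = x
      rw [mul_smul, inv_smul_eq_iff, hc]
    · simp [mul_assoc]
  refine ⟨M, p,
    { pprime := hp
      pgroup := fun z => by
        refine IsPGroup.map ?_ _
        intro u
        exact ⟨1, Subtype.ext (by simpa using u.2.2)⟩
      comm := ?_
      conj := ?_
      fix := ?_
      faithful := fun g hg => FaithfulSMul.eq_of_smul_eq_smul fun z : X => by rw [hg, one_smul]
      two_trans := h2'
      nsr := ?_ }⟩
  · rintro z _ ⟨u, hu, rfl⟩ _ ⟨v, hv, rfl⟩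
    simp only [MulEquiv.coe_toMonoidHom, ← map_mul, hNab u hu.1 v hv.1]
  · rintro g z _ ⟨u, hu, rfl⟩
    have := hMmem (g * c z) u hu
    rw [mul_smul, hc] at this
    simpa [mul_assoc] using this
  · rintro z _ ⟨u, hu, rfl⟩
    show (c z * u * (c z)⁻¹) • z = z
    rw [mul_smul, mul_smul, inv_smul_eq_iff.2 (hc z).symm, show u • x = x from hNle hu.1, hc]
  · intro u v huv
    obtain ⟨g, hgx, hgy⟩ := h2' x y u v (Ne.symm hyx) huv
    have haP : a ∈ P := ⟨N.pow_mem hn _, by rw [← ha]; exact pow_orderOf_eq_one a⟩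
    refine ⟨g * a * g⁻¹, hgx ▸ hMmem g a haP, fun e => ?_, ?_⟩
    · rw [conj_eq_one_iff.1 e, orderOf_one] at ha
      exact hp.one_lt.ne ha
    · have hay : a • y = y := (MulAction.stabilizer G y).pow_mem hny _
      rw [← hgy, mul_smul, mul_smul, inv_smul_smul, hay]

/-- A normal nonabelian simple subgroup with trivial centralizer is the generalized Fitting subgroup. -/
theorem genFitting_eq {G : Type*} [Group G] [Finite G] {L : Subgroup G} (hL : L.Normal) [IsSimpleGroup L]
    (hperf : Group.IsPerfect L) (hc : Subgroup.centralizer (L : Set G) = ⊥) :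
    Cfsg.generalizedFittingSubgroup G = L := by
  haveI := hL
  have hq : Cfsg.IsQuasisimple L := by
    refine ⟨hperf, ?_⟩
    have hz : Subgroup.center L = ⊥ := by
      rcases IsSimpleGroup.eq_bot_or_eq_top_of_normal (Subgroup.center L) inferInstance with e | e
      · exact e
      · exfalso
        have hbot : ⁅(⊤ : Subgroup L), ⊤⁆ = ⊥ :=
          Subgroup.commutator_eq_bot_iff_le_centralizer.2 (fun u _ v _ => by
            exact Subgroup.mem_center_iff.1 (e ▸ Subgroup.mem_top u) v)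
        have h1 : commutator L = ⊤ := Group.IsPerfect.commutator_eq_top
        rw [commutator_def, hbot] at h1
        exact bot_ne_top h1
    exact ((QuotientGroup.quotientMulEquivOfEq hz).trans QuotientGroup.quotientBot).isSimpleGroup
  have hcomp : Cfsg.IsComponent L := ⟨hL.isSubnormal, hq⟩
  have hlay : Cfsg.layer G = L := le_antisymm
    (Components.layer_le_iff.2 fun K hK => by
      by_contra hne
      have hKL : K ≠ L := fun e => hne e.le
      have := Subgroup.commutator_eq_bot_iff_le_centralizer.1 (Components.component_commute hK hcomp hKL)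
      rw [hc] at this
      exact Components.component_ne_bot hK (le_bot_iff.1 this))
    (Components.component_le_layer hcomp)
  have hfit : Cfsg.fittingSubgroup G = ⊥ := by
    rw [Cfsg.fittingSubgroup, sSup_eq_bot]
    rintro K ⟨hK, hKn⟩
    haveI := hK
    have hcap : K.subgroupOf L = ⊥ := by
      rcases IsSimpleGroup.eq_bot_or_eq_top_of_normal (K.subgroupOf L) inferInstance with e | e
      · exact e
      · exfalso
        rw [Subgroup.subgroupOf_eq_top] at e
        haveI := hKn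
        have hLn : Group.IsNilpotent L :=
          Group.nilpotent_of_mulEquiv (Subgroup.subgroupOfEquivOfLe e)
        haveI := hLn
        haveI : Group.IsSolvable L := inferInstance
        exact Components.quasisimple_not_solvable hq inferInstance
    rw [Subgroup.subgroupOf_eq_bot] at hcap
    have h1 : ⁅K, L⁆ = ⊥ := le_bot_iff.1 (le_trans (Subgroup.commutator_le_inf K L) (by
      rw [disjoint_iff] at hcap; rw [hcap]))
    have := Subgroup.commutator_eq_bot_iff_le_centralizer.1 h1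
    rwa [hc, le_bot_iff] at this
  rw [Cfsg.generalizedFittingSubgroup, hlay, hfit, sup_bot_eq]

/-- O'Nan's theorem for abelian normal subgroups. -/
theorem onan_abelian {G X : Type*} [Group G] [Finite G] [Finite X] [MulAction G X] [FaithfulSMul G X]
    (h2 : MulAction.IsMultiplyPretransitive G X 2) (x : X) (N : Subgroup G) (hNle : N ≤ MulAction.stabilizer G x)
    (hNnormal : ∀ g ∈ MulAction.stabilizer G x, ∀ n ∈ N, g * n * g⁻¹ ∈ N)
    (hNab : ∀ a ∈ N, ∀ b ∈ N, a * b = b * a)
    (hnsr : ∃ n ∈ N, n ≠ 1 ∧ ∃ y : X, y ≠ x ∧ n • y = y) :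
    ∃ (m : ℕ) (F : Type) (_ : Field F) (_ : Fintype F), 2 ≤ m ∧
      Nat.card X = (Fintype.card F ^ (m + 1) - 1) / (Fintype.card F - 1) ∧
      ∃ L : Subgroup G, L.Normal ∧ Nonempty (L ≃* Matrix.ProjectiveSpecialLinearGroup (Fin (m + 1)) F) ∧
        Subgroup.centralizer (L : Set G) = ⊥ := by
  obtain ⟨M, p, hM⟩ := exists_fam h2 x N hNle hNnormal hNab hnsr
  obtain ⟨-, -, -, y, hyx, -⟩ := hnsr
  exact hM.exists_psl h2 ⟨y, x, hyx⟩

end Cfsg.Agent.ONanPSL
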